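import Mathlib

/-!
Root elements for an extension-field structure `L/F` on a vector space `V`, inside a group `M` of
`F`-linear automorphisms containing the `L`-linear automorphisms of determinant norm one.
-/

set_option autoImplicit false

namespace CfsgLib.FieldExtMax

open Module

variable {F L V : Type*} [Field F] [Field L] [Algebra F L] [AddCommGroup V] [Module F V]
  [Module L V] [IsScalarTower F L V]

/-- `1 + N` lies in `M`. -/
def InM (M : Subgroup (V ≃ₗ[F] V)) (N : V →ₗ[F] V) : Prop := ∃ e ∈ M, ∀ y, e y = y + N y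

/-- `M` contains the `L`-linear maps with determinant of norm one. -/
def ContainsLin (L : Type*) [Field L] [Algebra F L] [Module L V] [IsScalarTower F L V]
    (M : Subgroup (V ≃ₗ[F] V)) : Prop :=
  ∀ e : V ≃ₗ[L] V, Algebra.norm F (LinearMap.det (e : V →ₗ[L] V)) = 1 → e.restrictScalars F ∈ M

variable {M : Subgroup (V ≃ₗ[F] V)}

lemma InM.zero : InM M 0 := ⟨1, M.one_mem, fun y => by simp⟩

lemma InM.congr {N N' : V →ₗ[F] V} (h : InM M N) (he : ∀ y, N' y = N y) : InM M N' := by
  rwa [LinearMap.ext he]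

lemma InM.add {N N' : V →ₗ[F] V} (h : InM M N) (h' : InM M N') (h0 : ∀ y, N (N' y) = 0) :
    InM M (N + N') := by
  obtain ⟨e, he, hey⟩ := h
  obtain ⟨e', he', hey'⟩ := h'
  refine ⟨e * e', M.mul_mem he he', fun y => ?_⟩
  rw [LinearEquiv.mul_apply, hey', hey, map_add, h0, LinearMap.add_apply]
  abel

lemma InM.conj {N : V →ₗ[F] V} (h : InM M N) {g : V ≃ₗ[F] V} (hg : g ∈ M) :
    InM M ((g : V →ₗ[F] V) ∘ₗ N ∘ₗ (g⁻¹ : V ≃ₗ[F] V).toLinearMap) := by
  obtain ⟨e, he, hey⟩ := h
  refine ⟨g * e * g⁻¹, M.mul_mem (M.mul_mem hg he) (M.inv_mem hg), fun y => ?_⟩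
  rw [LinearEquiv.mul_apply, LinearEquiv.mul_apply, hey, map_add]
  simp

lemma InM.neg {N : V →ₗ[F] V} (h : InM M N) (h0 : ∀ y, N (N y) = 0) : InM M (-N) := by
  obtain ⟨e, he, hey⟩ := h
  refine ⟨e⁻¹, M.inv_mem he, fun y => ?_⟩
  apply e.injective
  rw [← LinearEquiv.mul_apply, mul_inv_cancel, LinearEquiv.coe_one, id_eq, LinearMap.neg_apply,
    map_add, map_neg, hey, hey, h0]
  abel

/-- The commutator of two square-zero root elements. -/
lemma InM.comm {N N' : V →ₗ[F] V} (h : InM M N) (h' : InM M N') (hN : ∀ y, N (N y) = 0)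
    (hN' : ∀ y, N' (N' y) = 0) (h0 : ∀ y, N' (N y) = 0) : InM M (N ∘ₗ N') := by
  obtain ⟨e, he, hey⟩ := h
  obtain ⟨e', he', hey'⟩ := h'
  obtain ⟨f, hf, hfy⟩ := InM.neg ⟨e, he, hey⟩ hN
  obtain ⟨f', hf', hfy'⟩ := InM.neg ⟨e', he', hey'⟩ hN'
  refine ⟨e * e' * f * f', M.mul_mem (M.mul_mem (M.mul_mem he he') hf) hf', fun y => ?_⟩
  simp only [LinearEquiv.mul_apply, LinearMap.comp_apply, hey, hey', hfy, hfy',
    LinearMap.neg_apply, map_add, map_neg, hN, hN', h0, map_zero, neg_zero, add_zero]
  abel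

/-- The map `y ↦ τ (φ y) • a`. -/
def rootMap (τ : L →ₗ[F] L) (φ : Dual L V) (a : V) : V →ₗ[F] V :=
  ((LinearMap.toSpanSingleton L V a).restrictScalars F) ∘ₗ τ ∘ₗ (φ.restrictScalars F)

@[simp] lemma rootMap_apply (τ : L →ₗ[F] L) (φ : Dual L V) (a y : V) :
    rootMap τ φ a y = τ (φ y) • a := rfl

lemma smul_algebraMap_comm (c : F) (l : L) (y : V) : l • c • y = c • l • y := smul_comm l c y

lemma exists_functional {P : Submodule L V} {w : V} (hw : w ∉ P) :
    ∃ ψ : Dual L V, ψ w = 1 ∧ ∀ y ∈ P, ψ y = 0 := by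
  obtain ⟨f, hf, hker⟩ := Submodule.exists_le_ker_of_notMem hw
  exact ⟨(f w)⁻¹ • f, by simp [inv_mul_cancel₀ hf], fun y hy => by
    simp [show f y = 0 from hker hy]⟩

section mem

variable [FiniteDimensional L V]

/-- Root elements of `L`-transvections. -/
lemma inM_lin (hM : ContainsLin L M) {φ : Dual L V} {a : V} (h : φ a = 0) :
    InM M (rootMap LinearMap.id φ a) := by
  refine ⟨(LinearEquiv.transvection h).restrictScalars F, hM _ ?_, fun y => ?_⟩
  · rw [LinearEquiv.transvection.coe_toLinearMap, LinearMap.transvection.det, h, add_zero, map_one]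
  · rw [LinearEquiv.restrictScalars_apply, LinearEquiv.transvection.apply]
    rfl

lemma transvection_mem (hM : ContainsLin L M) {φ : Dual L V} {a : V} (h : φ a = 0) :
    (LinearEquiv.transvection h).restrictScalars F ∈ M :=
  hM _ (by rw [LinearEquiv.transvection.coe_toLinearMap, LinearMap.transvection.det, h, add_zero,
    map_one])

lemma exists_map_vec (hM : ContainsLin L M) (hm : 2 ≤ finrank L V) {v w : V} (hv : v ≠ 0)
    (hw : w ≠ 0) : ∃ e : V ≃ₗ[L] V, e.restrictScalars F ∈ M ∧ e v = w := by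
  have key : ∀ {v w : V}, v ≠ 0 → w ∉ Submodule.span L {v} →
      ∃ e : V ≃ₗ[L] V, e.restrictScalars F ∈ M ∧ e v = w := by
    intro v w hv hvw
    have hnot : v ∉ Submodule.span L {w - v} := by
      intro h
      obtain ⟨c, hc⟩ := Submodule.mem_span_singleton.1 h
      rcases eq_or_ne c 0 with rfl | hc0
      · exact hv (by simpa using hc.symm)
      · refine hvw (Submodule.mem_span_singleton.2 ⟨c⁻¹ + 1, ?_⟩)
        rw [add_smul, one_smul]
        nth_rewrite 1 [← hc]
        rw [inv_smul_smul₀ hc0, sub_add_cancel]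
    obtain ⟨ψ, h1, h2⟩ := exists_functional hnot
    refine ⟨LinearEquiv.transvection (h2 (w - v) (Submodule.mem_span_singleton_self _)),
      transvection_mem hM _, ?_⟩
    rw [LinearEquiv.transvection.apply, h1, one_smul, add_sub_cancel]
  by_cases hwv : w ∈ Submodule.span L {v}
  · obtain ⟨z, hz⟩ : ∃ z, z ∉ Submodule.span L {v} := by
      by_contra! h
      have htop : Submodule.span L {v} = ⊤ := eq_top_iff.2 fun x _ => h x
      have h1 := finrank_span_singleton (K := L) hv
      rw [htop, finrank_top] at h1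
      omega
    have hz0 : z ≠ 0 := fun h => hz (h ▸ zero_mem _)
    obtain ⟨c, rfl⟩ := Submodule.mem_span_singleton.1 hwv
    have hc : c ≠ 0 := fun h => hw (by simp [h])
    obtain ⟨e1, he1, h1⟩ := key hv hz
    obtain ⟨e2, he2, h2⟩ := key (v := z) (w := c • v) hz0 (fun h => by
      obtain ⟨d, hd⟩ := Submodule.mem_span_singleton.1 h
      rcases eq_or_ne d 0 with rfl | hd0
      · exact hw (by simpa using hd.symm)
      · exact hz (Submodule.mem_span_singleton.2
          ⟨d⁻¹ * c, by rw [mul_smul, ← hd, inv_smul_smul₀ hd0]⟩))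
    refine ⟨e1.trans e2, ?_, by simp [h1, h2]⟩
    exact M.mul_mem he2 he1
  · exact key hv hwv

lemma exists_map_functional (hM : ContainsLin L M) {a : V} {φ φ' : Dual L V} (hφ : φ ≠ 0)
    (hφ' : φ' ≠ 0) (ha : φ a = 0) (ha' : φ' a = 0) :
    ∃ (e : V ≃ₗ[L] V) (c : L), e.restrictScalars F ∈ M ∧ e a = a ∧ c ≠ 0 ∧
      ∀ y, φ (e y) = c * φ' y := by
  by_cases hdep : ∀ w, φ' w = 0 → φ w = 0
  · obtain ⟨w, hw⟩ : ∃ w, φ w ≠ 0 := by
      by_contra! h
      exact hφ (LinearMap.ext h)
    have hw' : φ' w ≠ 0 := fun h => hw (hdep w h)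
    refine ⟨LinearEquiv.refl L V, φ w / φ' w, M.one_mem, rfl, div_ne_zero hw hw', fun y => ?_⟩
    have h := hdep (y - (φ' y / φ' w) • w) (by simp [div_mul_cancel₀ _ hw'])
    rw [map_sub, map_smul, smul_eq_mul, sub_eq_zero] at h
    simp only [LinearEquiv.refl_apply, h]
    field_simp
  · push Not at hdep
    obtain ⟨w, hw', hw⟩ := hdep
    set w₁ := (φ w)⁻¹ • w
    have h1 : φ w₁ = 1 := by simp [w₁, inv_mul_cancel₀ hw]
    have h2 : φ' w₁ = 0 := by simp [w₁, hw']
    have hψ : ((φ' - φ) : Dual L V) (w₁ : V) = -1 := by simp [h1, h2]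
    obtain ⟨u, hu⟩ : ∃ u, φ' u ≠ 0 := by
      by_contra! h
      exact hφ' (LinearMap.ext h)
    set u₁ := (φ' u)⁻¹ • u
    have hu1 : φ' u₁ = 1 := by simp [u₁, inv_mul_cancel₀ hu]
    set z := w₁ + (1 : L) • (u₁ - (φ u₁) • w₁)
    have hz1 : φ z = 1 := by simp [z, h1]
    have hz2 : φ' z = 1 := by simp [z, h2, hu1]
    have hz : ((φ' - φ) : Dual L V) z = 0 := by simp [hz1, hz2]
    refine ⟨LinearEquiv.transvection hz, 1, transvection_mem hM hz, ?_, one_ne_zero, fun y => ?_⟩
    · rw [LinearEquiv.transvection.apply]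
      simp [ha, ha']
    · rw [LinearEquiv.transvection.apply, map_add, map_smul, hz1]
      simp

/-- The dilatation along `a`. -/
lemma exists_dilatation [FiniteDimensional F L] (hM : ContainsLin L M) {a : V} {ψ : Dual L V} (h : ψ a = 1) {l : L}
    (hl : Algebra.norm F l = 1) :
    ∃ e : V ≃ₗ[L] V, e.restrictScalars F ∈ M ∧ ∀ y, e y = y + ((l - 1) * ψ y) • a := by
  have hl0 : l ≠ 0 := by
    intro h0
    haveI : Nontrivial F := inferInstance
    rw [h0, Algebra.norm_zero] at hl
    exact zero_ne_one hl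
  have hu : IsUnit (1 + ((l - 1) • ψ) a) := by
    rw [LinearMap.smul_apply, h, smul_eq_mul, mul_one, add_sub_cancel]
    exact isUnit_iff_ne_zero.2 hl0
  refine ⟨LinearEquiv.dilatransvection hu, hM _ ?_, fun y => ?_⟩
  · rw [LinearEquiv.dilatransvection.coe_toLinearMap, LinearMap.transvection.det,
      LinearMap.smul_apply, h, smul_eq_mul, mul_one, add_sub_cancel, hl]
  · rw [LinearEquiv.dilatransvection.apply]
    rfl

end mem

/-- The additive span of the norm one elements is the whole field. -/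
lemma closure_norm_one [Finite L] [FiniteDimensional F L] (hr : 2 ≤ finrank F L) :
    AddSubgroup.closure {l : L | Algebra.norm F l = 1} = ⊤ := by
  classical
  haveI : Finite F := Finite.of_injective _ (algebraMap F L).injective
  let S : Submonoid L :=
    { carrier := {l | Algebra.norm F l = 1}
      one_mem' := map_one _
      mul_mem' := fun {a b} (ha : _ = 1) (hb : _ = 1) =>
        show Algebra.norm F (a * b) = 1 by rw [map_mul, ha, hb, one_mul] }
  have hcar : (Subring.closure (S : Set L)).toAddSubgroup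
      = AddSubgroup.closure {l : L | Algebra.norm F l = 1} := by
    ext x
    change x ∈ Subring.closure (S : Set L) ↔ _
    rw [Subring.mem_closure_iff, Submonoid.closure_eq]
    rfl
  set E := Subring.closure (S : Set L)
  rw [← hcar]
  have hEtop : E = ⊤ := by
    letI : Fintype E := Fintype.ofFinite E
    letI : Field E := (Finite.isField_of_domain E).toField
    letI : Fintype L := Fintype.ofFinite L
    letI : Fintype F := Fintype.ofFinite F
    have hpow : ∃ k, Nat.card L = Nat.card E ^ k :=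
      ⟨_, Module.natCard_eq_pow_finrank (K := E) (V := L)⟩
    obtain ⟨k, hk⟩ := hpow
    set q := Nat.card F
    set r := finrank F L
    have hL : Nat.card L = q ^ r := Module.natCard_eq_pow_finrank
    have hq : 2 ≤ q := Finite.one_lt_card
    have hu : q ^ (r - 1) + 1 ≤ Nat.card {l : L // Algebra.norm F l = 1} := by
      let φ : Lˣ →* Fˣ := Units.map (Algebra.norm F)
      have hk' := Subgroup.card_eq_card_quotient_mul_card_subgroup φ.ker
      rw [Nat.card_congr (QuotientGroup.quotientKerEquivOfSurjective φ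
        (FiniteField.unitsMap_norm_surjective F L)).toEquiv, Nat.card_units, Nat.card_units, hL]
        at hk'
      have hle : Nat.card φ.ker ≤ Nat.card {l : L // Algebra.norm F l = 1} := by
        refine Nat.card_le_card_of_injective (fun x => ⟨((x : Lˣ) : L), by
          simpa [φ] using congrArg Units.val (show φ (x : Lˣ) = 1 from x.2)⟩) ?_
        intro x y h
        exact Subtype.ext (Units.ext (congrArg Subtype.val h))
      refine le_trans ?_ hle
      by_contra! hlt
      have h1 : Nat.card φ.ker ≤ q ^ (r - 1) := Nat.lt_succ_iff.1 hlt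
      have h2 := Nat.mul_le_mul_left (q - 1) h1
      have h3 : q ^ r = q * q ^ (r - 1) := by rw [← pow_succ', Nat.sub_add_cancel (by omega)]
      have h4 : q ≤ q ^ (r - 1) := Nat.le_self_pow (by omega) _
      rw [← hk', Nat.sub_mul, one_mul, ← h3] at h2
      have h5 : q ^ (r - 1) ≤ q ^ r := Nat.pow_le_pow_right (by omega) (by omega)
      omega
    have hcardE : Nat.card {l : L // Algebra.norm F l = 1} ≤ Nat.card E :=
      Nat.card_le_card_of_injective (fun l => ⟨l.1, Subring.subset_closure l.2⟩)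
        fun x y h => Subtype.ext (congrArg (Subtype.val) h :)
    refine SetLike.ext' (Set.eq_of_subset_of_ncard_le (Set.subset_univ _) ?_ (Set.toFinite _))
    rw [Subring.coe_top, Set.ncard_univ, ← Nat.card_coe_set_eq]
    by_contra! hlt
    change Nat.card E < Nat.card L at hlt
    rcases Nat.lt_or_ge k 2 with hk2 | hk2
    · interval_cases k
      · rw [pow_zero] at hk
        have h1 : 1 < q ^ r := Nat.one_lt_pow (by omega) (by omega)
        omega
      · rw [pow_one] at hk
        omega
    · have h1 : (q ^ (r - 1) + 1) ^ 2 ≤ Nat.card L := by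
        rw [hk]
        exact le_trans (Nat.pow_le_pow_left (hu.trans hcardE) 2)
          (Nat.pow_le_pow_right Nat.card_pos hk2)
      have h2 : q ^ r ≤ q ^ ((r - 1) * 2) := Nat.pow_le_pow_right (by omega) (by omega)
      rw [pow_mul, ← hL] at h2
      have := Nat.pow_lt_pow_left (show q ^ (r - 1) < q ^ (r - 1) + 1 by omega) two_ne_zero
      omega
  rw [hEtop]
  rfl

section U

variable [FiniteDimensional L V] [Finite L] [FiniteDimensional F L]

/-- Left multiplication by scalars preserves the root elements with centre line `L a`. -/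
lemma inM_smul (hM : ContainsLin L M) (hr : 2 ≤ finrank F L) {a : V} (ha : a ≠ 0)
    {β : V →ₗ[F] V} (h : InM M β) (himg : ∀ y, ∃ l : L, β y = l • a)
    (hker : ∀ l : L, β (l • a) = 0) (l : L) :
    InM M (((LinearMap.lsmul L V l).restrictScalars F) ∘ₗ β) := by
  have hz : ∀ (l : L) y, β ((l • β y)) = 0 := fun l y => by
    obtain ⟨c, hc⟩ := himg y
    rw [hc, smul_smul, hker]
  let H : AddSubgroup L :=
    { carrier := {l | InM M (((LinearMap.lsmul L V l).restrictScalars F) ∘ₗ β)}
      zero_mem' := InM.zero.congr fun y => by simp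
      add_mem' := fun {b c} hb hc => (hb.add hc fun y => by simp [hz]).congr fun y => by
        simp [add_smul]
      neg_mem' := fun {b} hb => (hb.neg fun y => by simp [hz]).congr fun y => by simp }
  have hgen : {l : L | Algebra.norm F l = 1} ⊆ H := by
    intro l hl
    obtain ⟨ψ, h1, -⟩ := exists_functional (P := (⊥ : Submodule L V)) (w := a) (by simpa using ha)
    obtain ⟨e, he, hey⟩ := exists_dilatation hM h1 hl
    refine (h.conj he).congr fun y => ?_
    obtain ⟨c, hc⟩ := himg (e.symm y)
    have hy : β y = β (e.symm y) := by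
      have := hey (e.symm y)
      rw [e.apply_symm_apply] at this
      conv_lhs => rw [this]
      rw [map_add, hker, add_zero]
    change l • β y = e (β (e.symm y))
    rw [hy, hey, hc, map_smul, h1, smul_eq_mul, mul_one, smul_smul, ← add_smul]
    congr 1
    ring
  have : (⊤ : AddSubgroup L) ≤ H := closure_norm_one hr ▸ AddSubgroup.closure_le H |>.2 hgen
  exact this (AddSubgroup.mem_top l)

end U

end CfsgLib.FieldExtMax
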