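import Cfsg.Agent.FieldExtMax.Basic

/-!
The space `U ⊆ End_F L` of coefficients of root elements in `M`: an `L`-bimodule, hence spanned
by field automorphisms; if it is proper its idealiser is `L`.
-/

set_option autoImplicit false

namespace CfsgLib.FieldExtMax

open Module

variable {F L V : Type*} [Field F] [Field L] [Algebra F L] [AddCommGroup V] [Module F V]
  [Module L V] [IsScalarTower F L V]

/-- The coefficient space. -/
def IsCoeff (M : Subgroup (V ≃ₗ[F] V)) (τ : L →ₗ[F] L) : Prop :=
  ∀ (φ : Dual L V) (a : V), φ a = 0 → InM M (rootMap τ φ a)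

variable {M : Subgroup (V ≃ₗ[F] V)}

lemma IsCoeff.add {τ τ' : L →ₗ[F] L} (h : IsCoeff M τ) (h' : IsCoeff M τ') :
    IsCoeff M (τ + τ') := fun φ a ha =>
  ((h φ a ha).add (h' φ a ha) fun y => by simp [ha]).congr fun y => by simp [add_smul]

lemma IsCoeff.zero : IsCoeff M (0 : L →ₗ[F] L) := fun _ _ _ => InM.zero.congr fun y => by simp

lemma IsCoeff.smul {τ : L →ₗ[F] L} (h : IsCoeff M τ) (l : L) : IsCoeff M (l • τ) :=
  fun φ a ha => (h φ (l • a) (by simp [ha])).congr fun y => by
    simp [smul_smul, mul_comm]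

lemma IsCoeff.comp_mul {τ : L →ₗ[F] L} (h : IsCoeff M τ) (l : L) :
    IsCoeff M (τ ∘ₗ (LinearMap.lsmul L L l).restrictScalars F) :=
  fun φ a ha => (h (l • φ) a (by simp [ha])).congr fun y => by simp

lemma rootMap_mul_self (τ : L →ₗ[F] L) {φ : Dual L V} {a : V} (ha : φ a = 0) (y : V) :
    rootMap τ φ a (rootMap τ φ a y) = 0 := by simp [ha]

variable [FiniteDimensional L V] [Finite L] [FiniteDimensional F L]

lemma rootMap_inM_of_eq (hM : ContainsLin L M) (hm : 2 ≤ finrank L V) (hr : 2 ≤ finrank F L)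
    {τ : L →ₗ[F] L} {φ₀ : Dual L V} {a₀ : V} (hφ₀ : φ₀ ≠ 0) (ha₀ : a₀ ≠ 0) (h0 : φ₀ a₀ = 0)
    (h : InM M (rootMap τ φ₀ a₀)) {φ : Dual L V} {a : V} (hφ : φ ≠ 0) (ha : a ≠ 0)
    (hφa : φ a = 0) : InM M (rootMap τ φ a) := by
  -- move the centre
  obtain ⟨e, he, hea⟩ := exists_map_vec hM hm ha₀ ha
  set φ₁ : Dual L V := φ₀ ∘ₗ (e.symm : V →ₗ[L] V)
  have h1 : InM M (rootMap τ φ₁ a) := (h.conj he).congr fun y => by
    change τ (φ₀ (e.symm y)) • a = e (τ (φ₀ (e.symm y)) • a₀)
    rw [map_smul, hea]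
  have hφ₁a : φ₁ a = 0 := by
    change φ₀ (e.symm a) = 0
    rw [← hea, e.symm_apply_apply, h0]
  have hφ₁ : φ₁ ≠ 0 := fun h => hφ₀ (LinearMap.ext fun y => by
    simpa [φ₁] using LinearMap.congr_fun h (e y))
  -- move the functional
  obtain ⟨g, c, hg, hga, hc, hgy⟩ := exists_map_functional hM hφ₁ hφ hφ₁a hφa
  have hgs : g.symm a = a := by rw [LinearEquiv.symm_apply_eq, hga]
  have h2 : InM M (rootMap τ (c • φ) a) := (h1.conj (M.inv_mem hg)).congr fun y => by
    rw [inv_inv]
    change τ (c * φ y) • a = g.symm (τ (φ₁ (g y)) • a)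
    rw [map_smul, hgs, hgy]
  -- absorb the scalar
  obtain ⟨w, hw⟩ : ∃ w, φ w ≠ 0 := by
    by_contra! h
    exact hφ (LinearMap.ext h)
  set w₁ := (φ w)⁻¹ • w
  have hw1 : φ w₁ = 1 := by simp [w₁, inv_mul_cancel₀ hw]
  let H : AddSubgroup L :=
    { carrier := {l | InM M (rootMap τ (l • φ) a)}
      zero_mem' := InM.zero.congr fun y => by simp
      add_mem' := fun {b c'} hb hc' => (hb.add hc' fun y => by simp [hφa]).congr fun y => by
        simp [add_mul, add_smul]
      neg_mem' := fun {b} hb => (hb.neg fun y => by simp [hφa]).congr fun y => by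
        simp [neg_mul, map_neg] }
  have hgen : {l : L | Algebra.norm F l = 1} ⊆ (AddSubgroup.comap (AddMonoidHom.mulRight c) H) := by
    intro l hl
    obtain ⟨d, hd, hdy⟩ := exists_dilatation hM hw1 hl
    have hda : d a = a := by rw [hdy, hφa, mul_zero, zero_smul, add_zero]
    have hds : d.symm a = a := by rw [LinearEquiv.symm_apply_eq, hda]
    change InM M (rootMap τ ((l * c) • φ) a)
    refine (h2.conj (M.inv_mem hd)).congr fun y => ?_
    rw [inv_inv]
    change τ (l * c * φ y) • a = d.symm (τ (c * φ (d y)) • a)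
    rw [map_smul, hds, hdy, map_add, map_smul, hw1]
    congr 2
    simp only [smul_eq_mul]
    ring
  have htop : (⊤ : AddSubgroup L) ≤ AddSubgroup.comap (AddMonoidHom.mulRight c) H :=
    closure_norm_one hr ▸ AddSubgroup.closure_le _ |>.2 hgen
  have := htop (AddSubgroup.mem_top c⁻¹)
  change InM M (rootMap τ ((c⁻¹ * c) • φ) a) at this
  rwa [inv_mul_cancel₀ hc, one_smul] at this

lemma isCoeff_of_inM (hM : ContainsLin L M) (hm : 2 ≤ finrank L V) (hr : 2 ≤ finrank F L)
    {τ : L →ₗ[F] L} {φ₀ : Dual L V} {a₀ : V} (hφ₀ : φ₀ ≠ 0) (ha₀ : a₀ ≠ 0) (h0 : φ₀ a₀ = 0)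
    (h : InM M (rootMap τ φ₀ a₀)) : IsCoeff M τ := by
  intro φ a hφa
  rcases eq_or_ne φ 0 with rfl | hφ
  · exact InM.zero.congr fun y => by simp
  rcases eq_or_ne a 0 with rfl | ha
  · exact InM.zero.congr fun y => by simp
  exact rootMap_inM_of_eq hM hm hr hφ₀ ha₀ h0 h hφ ha hφa

/-- Coefficients of a root element with centre line `L a`. -/
lemma isCoeff_coeff (hM : ContainsLin L M) (hm : 2 ≤ finrank L V) (hr : 2 ≤ finrank F L)
    {a : V} (ha : a ≠ 0) {β : V →ₗ[F] V} (h : InM M β) (himg : ∀ y, ∃ l : L, β y = l • a)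
    (hker : ∀ l : L, β (l • a) = 0) (b : V) {τ : L →ₗ[F] L}
    (hτ : ∀ l, β (l • b) = τ l • a) : IsCoeff M τ := by
  by_cases hb : b ∈ Submodule.span L {a}
  · obtain ⟨c, rfl⟩ := Submodule.mem_span_singleton.1 hb
    have : τ = 0 := LinearMap.ext fun l => by
      have := hτ l
      rw [smul_smul, hker] at this
      exact (smul_eq_zero.1 this.symm).resolve_right ha
    rw [this]
    exact IsCoeff.zero
  by_cases htop : Submodule.span L {a, b} = ⊤
  · obtain ⟨χ, h1, h2⟩ := exists_functional hb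
    have h2a : χ a = 0 := h2 a (Submodule.mem_span_singleton_self a)
    refine isCoeff_of_inM hM hm hr (φ₀ := χ) ?_ ha h2a ?_
    · intro h0
      rw [h0] at h1
      exact zero_ne_one h1
    refine h.congr fun y => ?_
    obtain ⟨c, d, hy⟩ := Submodule.mem_span_pair.1 (htop ▸ Submodule.mem_top : y ∈ Submodule.span L {a, b})
    have hd : χ y = d := by simp [← hy, h1, h2a]
    rw [rootMap_apply, hd, ← hy, map_add, hker, hτ, zero_add]
  · obtain ⟨w, hw⟩ : ∃ w, w ∉ Submodule.span L {a, b} := by
      by_contra! h'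
      exact htop (eq_top_iff.2 fun x _ => h' x)
    obtain ⟨χ, h1, h2⟩ := exists_functional hw
    have h2a : χ a = 0 := h2 a (Submodule.subset_span (by simp))
    have h2b : χ b = 0 := h2 b (Submodule.subset_span (by simp))
    refine isCoeff_of_inM hM hm hr (φ₀ := χ) ?_ ha h2a ?_
    · intro h0
      rw [h0] at h1
      exact zero_ne_one h1
    refine (h.comm (inM_lin hM h2b) ?_ ?_ ?_).congr fun y => ?_
    · intro y
      obtain ⟨l, hl⟩ := himg y
      rw [hl, hker]
    · intro y
      simp [h2b]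
    · intro y
      obtain ⟨l, hl⟩ := himg y
      simp [hl, h2a]
    · simp [hτ]

section basis

variable [IsGalois F L]

/-- Field automorphisms as a basis of `End_F L` over `L`. -/
noncomputable def autBasis : Basis (L ≃ₐ[F] L) L (L →ₗ[F] L) :=
  basisOfLinearIndependentOfCardEqFinrank
    ((linearIndependent_algHom_toLinearMap F L L).comp _ AlgEquiv.coe_toAlgHom_injective)
    (by rw [Module.finrank_linearMap_self, ← IsGalois.card_aut_eq_finrank,
      Nat.card_eq_fintype_card])

lemma autBasis_apply (g : L ≃ₐ[F] L) (x : L) : autBasis g x = g x := by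
  rw [autBasis, coe_basisOfLinearIndependentOfCardEqFinrank]
  rfl

lemma sum_repr_apply (τ : L →ₗ[F] L) (x : L) :
    ∑ g, autBasis.repr τ g * g x = τ x := by
  conv_rhs => rw [← autBasis.sum_repr τ]
  rw [LinearMap.sum_apply]
  exact Finset.sum_congr rfl fun j _ => by rw [LinearMap.smul_apply, autBasis_apply, smul_eq_mul]

/-- An element of the coefficient space involving `g` shows that `g` is in it. -/
lemma isCoeff_aut {τ : L →ₗ[F] L} (h : IsCoeff M τ) {g : L ≃ₐ[F] L}
    (hg : autBasis.repr τ g ≠ 0) : IsCoeff M (autBasis g) := by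
  classical
  induction hn : (Finset.univ.filter fun k => autBasis.repr τ k ≠ 0).card using Nat.strong_induction_on
    generalizing τ with
  | _ n ih =>
    by_cases hone : ∃ k, k ≠ g ∧ autBasis.repr τ k ≠ 0
    · obtain ⟨k, hkg, hk⟩ := hone
      obtain ⟨l, hl⟩ : ∃ l, g l ≠ k l := by
        by_contra! h'
        exact hkg (AlgEquiv.ext fun l => (h' l).symm)
      set τ' := τ ∘ₗ (LinearMap.lsmul L L l).restrictScalars F + (-(k l)) • τ
      have hτ' : IsCoeff M τ' := (h.comp_mul l).add (h.smul _)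
      have hrepr : ∀ j, autBasis.repr τ' j = autBasis.repr τ j * (j l - k l) := by
        have he : τ' = ∑ j, (autBasis.repr τ j * (j l - k l)) • autBasis j := by
          ext x
          simp only [τ', LinearMap.add_apply, LinearMap.smul_apply, LinearMap.comp_apply,
            LinearMap.coe_restrictScalars, LinearMap.lsmul_apply, smul_eq_mul, LinearMap.sum_apply,
            autBasis_apply, ← sum_repr_apply τ (l * x), ← sum_repr_apply τ x, map_mul,
            Finset.mul_sum, ← Finset.sum_add_distrib]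
          exact Finset.sum_congr rfl fun j _ => by ring
        intro j
        rw [he, Basis.repr_sum_self]
      refine ih _ ?_ hτ' ?_ rfl
      · rw [← hn]
        refine Finset.card_lt_card ⟨fun j hj => ?_, fun hsub => ?_⟩
        · simp only [Finset.mem_filter, Finset.mem_univ, true_and, hrepr] at hj ⊢
          exact left_ne_zero_of_mul hj
        · have := hsub (show k ∈ Finset.univ.filter fun j => autBasis.repr τ j ≠ 0 by simp [hk])
          simp [hrepr] at this
      · rw [hrepr]
        exact mul_ne_zero hg (sub_ne_zero.2 hl)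
    · push Not at hone
      have : τ = autBasis.repr τ g • autBasis g := by
        conv_lhs => rw [← autBasis.sum_repr τ]
        exact Finset.sum_eq_single g (fun k _ hk => by simp [hone k hk])
          (fun h' => absurd (Finset.mem_univ g) h')
      have h2 := h.smul (autBasis.repr τ g)⁻¹
      rwa [this, map_smul, Basis.repr_self, Finsupp.smul_single, Finsupp.single_eq_same,
        smul_eq_mul, mul_one, smul_smul, inv_mul_cancel₀ hg, one_smul] at h2

lemma isCoeff_of_forall_aut (h : ∀ g : L ≃ₐ[F] L, IsCoeff M (autBasis g)) (τ : L →ₗ[F] L) :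
    IsCoeff M τ := by
  rw [← autBasis.sum_repr τ]
  exact Finset.sum_induction _ (IsCoeff M) (fun _ _ => IsCoeff.add) IsCoeff.zero
    fun g _ => (h g).smul _

/-- Coefficients in a composition of an automorphism with an endomorphism. -/
lemma repr_comp (k : L ≃ₐ[F] L) (e : L) (X : L →ₗ[F] L) (g : L ≃ₐ[F] L) :
    autBasis.repr ((e • autBasis k) ∘ₗ X) g = e * k (autBasis.repr X (k⁻¹ * g)) := by
  have he : (e • autBasis k) ∘ₗ X = ∑ j, (e * k (autBasis.repr X (k⁻¹ * j))) • autBasis j := by
    ext x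
    simp only [LinearMap.comp_apply, LinearMap.smul_apply, autBasis_apply, smul_eq_mul,
      LinearMap.sum_apply, ← sum_repr_apply X x, map_sum, map_mul, Finset.mul_sum]
    exact Fintype.sum_equiv (Equiv.mulLeft k) _ _ fun j => by
      simp [mul_assoc, AlgEquiv.mul_apply]
  rw [he, Basis.repr_sum_self]

lemma repr_comp_right (k : L ≃ₐ[F] L) (X : L →ₗ[F] L) (g : L ≃ₐ[F] L) :
    autBasis.repr (X ∘ₗ autBasis k) g = autBasis.repr X (g * k⁻¹) := by
  have he : X ∘ₗ autBasis k = ∑ j, autBasis.repr X (j * k⁻¹) • autBasis j := by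
    ext x
    simp only [LinearMap.comp_apply, LinearMap.smul_apply, autBasis_apply, smul_eq_mul,
      LinearMap.sum_apply, ← sum_repr_apply X (k x)]
    exact Fintype.sum_equiv (Equiv.mulRight k) _ _ fun j => by
      simp [AlgEquiv.mul_apply]
  rw [he, Basis.repr_sum_self]

end basis

end CfsgLib.FieldExtMax
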