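import Cfsg.Agent.FieldExtMax.Transvections

/-!
The exceptional parameters: semilinear maps of a 2-dimensional space over `GF(4)` form a maximal
subgroup of `GL₄(2)`.
-/

set_option autoImplicit false

namespace CfsgLib.FieldExtMax

open Module

variable (F L V : Type*) [Field F] [Field L] [Algebra F L] [AddCommGroup V] [Module F V]
  [Module L V] [IsScalarTower F L V]

/-- Semilinear automorphisms. -/
def semiLin [Finite L] [Finite V] : Subgroup (V ≃ₗ[F] V) where
  carrier := {g | ∀ l : L, ∃ l' : L, ∀ y, g (l • y) = l' • g y}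
  one_mem' := fun l => ⟨l, fun y => rfl⟩
  mul_mem' := fun {g k} hg hk l => by
    obtain ⟨l', hl'⟩ := hk l
    obtain ⟨l'', hl''⟩ := hg l'
    exact ⟨l'', fun y => by rw [LinearEquiv.mul_apply, hl', hl'', LinearEquiv.mul_apply]⟩
  inv_mem' := fun {g} hg l => by
    rcases subsingleton_or_nontrivial V with hV | hV
    · exact ⟨0, fun y => Subsingleton.elim _ _⟩
    obtain ⟨v, hv⟩ := exists_ne (0 : V)
    choose f hf using hg
    have hinj : Function.Injective f := fun a b hab => by
      have h : g (a • v) = g (b • v) := by rw [hf, hf, hab]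
      exact smul_left_injective L hv (g.injective h)
    obtain ⟨l', rfl⟩ := (Finite.injective_iff_surjective.1 hinj) l
    refine ⟨l', fun y => g.injective ?_⟩
    change g (g.symm (f l' • y)) = g (l' • g.symm y)
    rw [g.apply_symm_apply, hf, g.apply_symm_apply]

variable {F L V}

lemma mem_semiLin [Finite L] [Finite V] {g : V ≃ₗ[F] V} :
    g ∈ semiLin F L V ↔ ∀ l : L, ∃ l' : L, ∀ y, g (l • y) = l' • g y := Iff.rfl

/-- Restriction of scalars as a homomorphism. -/
def restrictHom : (V ≃ₗ[L] V) →* (V ≃ₗ[F] V) where
  toFun e := e.restrictScalars F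
  map_one' := rfl
  map_mul' _ _ := rfl

lemma restrictHom_injective : Function.Injective (restrictHom (F := F) (L := L) (V := V)) :=
  fun a b h => LinearEquiv.ext fun y => (LinearEquiv.congr_fun h y :)

lemma card_linearEquiv (K W : Type*) [Field K] [Finite K] [AddCommGroup W] [Module K W]
    [FiniteDimensional K W] :
    Nat.card (W ≃ₗ[K] W) = ∏ i : Fin (finrank K W), (Nat.card K ^ finrank K W - Nat.card K ^ (i : ℕ)) := by
  letI := Fintype.ofFinite K
  have e1 : (W ≃ₗ[K] W) ≃ (W →ₗ[K] W)ˣ :=
    (LinearMap.GeneralLinearGroup.generalLinearEquiv K W).symm.toEquiv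
  have e2 : (W →ₗ[K] W)ˣ ≃ GL (Fin (finrank K W)) K :=
    (Units.mapEquiv (LinearMap.toMatrixAlgEquiv (finBasis K W)).toMulEquiv).toEquiv
  rw [Nat.card_congr (e1.trans e2), Matrix.card_GL_field, Nat.card_eq_fintype_card]

theorem semiLin_maximal_four_two [Finite L] [Finite V] (hF : Nat.card F = 2)
    (hr : finrank F L = 2) (hm : finrank L V = 2) {M : Subgroup (V ≃ₗ[F] V)}
    (hle : semiLin F L V ≤ M) (hne : ¬ M ≤ semiLin F L V) : M = ⊤ := by
  classical
  haveI : Finite F := Finite.of_injective _ (algebraMap F L).injective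
  haveI : FiniteDimensional F L := Module.Finite.of_finite
  haveI : FiniteDimensional L V := Module.Finite.of_finite
  haveI : FiniteDimensional F V := Module.Finite.of_finite
  haveI : Nontrivial V := Module.nontrivial_of_finrank_eq_succ (R := L) (n := 1) hm
  haveI : Finite (V ≃ₗ[F] V) := Finite.of_injective (fun e => (e : V → V)) DFunLike.coe_injective
  haveI : Finite (V ≃ₗ[L] V) := Finite.of_injective (fun e => (e : V → V)) DFunLike.coe_injective
  have hV : finrank F V = 4 := by rw [← Module.finrank_mul_finrank F L V, hr, hm]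
  have hL : Nat.card L = 4 := by rw [Module.natCard_eq_pow_finrank (K := F), hF, hr]; norm_num
  have hVc : Nat.card V = 16 := by rw [Module.natCard_eq_pow_finrank (K := F), hF, hV]; norm_num
  have hG : Nat.card (V ≃ₗ[F] V) = 20160 := by
    rw [card_linearEquiv, hV, hF]; rfl
  have hLin : Nat.card (V ≃ₗ[L] V) = 180 := by
    rw [card_linearEquiv, hm, hL]; rfl
  set N := semiLin F L V with hN
  -- the order of the semilinear group
  set H := (restrictHom : (V ≃ₗ[L] V) →* (V ≃ₗ[F] V)).range
  have hH : Nat.card H = 180 := by
    rw [Nat.card_congr (MonoidHom.ofInjective (restrictHom_injective (F := F))).symm.toEquiv, hLin]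
  have hHN : H ≤ N := by
    rintro _ ⟨e, rfl⟩ l
    exact ⟨l, fun y => map_smul e l y⟩
  obtain ⟨σ, hσ⟩ : ∃ σ : L ≃ₐ[F] L, σ ≠ 1 := by
    haveI : Nontrivial (L ≃ₐ[F] L) := Finite.one_lt_card_iff_nontrivial.1 (by
      rw [card_aut, hr]; norm_num)
    exact exists_ne 1
  have hcardN : Nat.card N = 360 := by
    have h1 : (H.subgroupOf N).index = 2 := by
      apply le_antisymm
      · -- at most two possibilities for the image of a generator
        obtain ⟨ω, hω⟩ : ∃ ω : L, σ ω ≠ ω := by
          by_contra! h
          exact hσ (AlgEquiv.ext h)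
        obtain ⟨v, hv⟩ := exists_ne (0 : V)
        have hroots : Nat.card {x : L // x ≠ 0 ∧ x ≠ 1} = 2 := by
          letI := Fintype.ofFinite L
          rw [Nat.card_eq_fintype_card, Fintype.card_subtype]
          have : (Finset.univ.filter fun x : L => x ≠ 0 ∧ x ≠ 1) = (Finset.univ \ {0, 1}) := by
            ext x; simp
          rw [this, Finset.card_sdiff_of_subset (Finset.subset_univ _), Finset.card_univ,
            Finset.card_pair zero_ne_one, Fintype.card_eq_nat_card, hL]
        choose f hf using fun g : N => g.2 ω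
        have hω0 : ω ≠ 0 := fun h => hω (by simp [h])
        have hω1 : ω ≠ 1 := fun h => hω (by simp [h])
        have hf01 : ∀ g, f g ≠ 0 ∧ f g ≠ 1 := by
          intro g
          constructor
          · intro h
            have h2 := hf g v
            rw [h, zero_smul] at h2
            exact hv ((smul_eq_zero.1 ((LinearEquiv.map_eq_zero_iff _).1 h2)).resolve_left hω0)
          · intro h
            have h2 := hf g v
            rw [h, one_smul] at h2
            have h3 := (g : V ≃ₗ[F] V).injective h2
            exact hω1 (smul_left_injective L hv (by simpa using h3))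
        have hbasis : ∀ l : L, ∃ a b : F, l = a • (1 : L) + b • ω := by
          have hli : LinearIndependent F ![(1 : L), ω] := by
            rw [LinearIndependent.pair_iff' one_ne_zero]
            intro a ha
            exact hω (by rw [← ha, map_smul, map_one])
          have hsp := hli.span_eq_top_of_card_eq_finrank (by simp [hr])
          intro l
          have : l ∈ Submodule.span F (Set.range ![(1 : L), ω]) := hsp ▸ Submodule.mem_top
          rw [Matrix.range_cons_cons_empty, Submodule.mem_span_pair] at this
          obtain ⟨a, b, hab⟩ := this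
          exact ⟨a, b, hab.symm⟩
        have hsame : ∀ g k : N, f g = f k → g⁻¹ * k ∈ H.subgroupOf N := by
          intro g k hgk
          have hlin : ∀ (l : L) y, ((g⁻¹ * k : N) : V ≃ₗ[F] V) (l • y)
              = l • ((g⁻¹ * k : N) : V ≃ₗ[F] V) y := by
            intro l y
            obtain ⟨a, b, rfl⟩ := hbasis l
            apply (g : V ≃ₗ[F] V).injective
            simp only [Subgroup.coe_mul, Subgroup.coe_inv, LinearEquiv.mul_apply]
            rw [show ∀ z, (g : V ≃ₗ[F] V) (((g : V ≃ₗ[F] V))⁻¹ z) = z from
              fun z => LinearEquiv.apply_symm_apply _ z]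
            simp only [add_smul, smul_assoc, one_smul, map_add, map_smul, hf, hgk]
            rw [show ∀ z, (g : V ≃ₗ[F] V) (((g : V ≃ₗ[F] V))⁻¹ z) = z from
              fun z => LinearEquiv.apply_symm_apply _ z]
          refine ⟨{ ((g⁻¹ * k : N) : V ≃ₗ[F] V) with map_smul' := hlin }, ?_⟩
          exact LinearEquiv.ext fun y => rfl
        rw [Subgroup.index, ← hroots]
        refine Nat.card_le_card_of_injective
          (fun q => (⟨f q.out, hf01 _⟩ : {x : L // x ≠ 0 ∧ x ≠ 1})) ?_
        intro a b hab
        rw [← a.out_eq', ← b.out_eq']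
        exact QuotientGroup.eq.2 (hsame _ _ (congrArg Subtype.val hab))
      · have h0 : (H.subgroupOf N).index ≠ 0 := Subgroup.index_ne_zero_of_finite
        by_contra! hlt
        have htop : N ≤ H := by
          rw [← Subgroup.subgroupOf_eq_top, ← Subgroup.index_eq_one]
          omega
        let b := finBasis L V
        let π : (Fin (finrank L V) → L) ≃ₗ[F] (Fin (finrank L V) → L) :=
          LinearEquiv.piCongrRight fun _ : Fin (finrank L V) => σ.toLinearEquiv
        let τ : V ≃ₗ[F] V := (b.equivFun.restrictScalars F).trans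
          (π.trans (b.equivFun.symm.restrictScalars F))
        have hτapp : ∀ y j, b.equivFun (τ y) j = σ (b.equivFun y j) := fun y j => by
          change b.equivFun (b.equivFun.symm (π (b.equivFun y))) j = _
          rw [LinearEquiv.apply_symm_apply]
          rfl
        have hτ : τ ∈ N := fun l => ⟨σ l, fun y => by
          apply b.equivFun.injective
          funext j
          rw [hτapp, map_smul b.equivFun, map_smul b.equivFun, Pi.smul_apply, Pi.smul_apply,
            smul_eq_mul, smul_eq_mul, map_mul, hτapp]⟩
        obtain ⟨e, he⟩ := htop hτ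
        obtain ⟨l, hl⟩ : ∃ l, σ l ≠ l := by
          by_contra! h
          exact hσ (AlgEquiv.ext h)
        let i : Fin (finrank L V) := ⟨0, by omega⟩
        have hb : τ (b i) = b i := by
          apply b.equivFun.injective
          funext j
          rw [hτapp, Basis.equivFun_self]
          split <;> simp
        have h1 : τ (l • b i) = σ l • b i := by
          apply b.equivFun.injective
          funext j
          rw [hτapp, map_smul b.equivFun, map_smul b.equivFun, Pi.smul_apply, Pi.smul_apply,
            smul_eq_mul, smul_eq_mul, map_mul, Basis.equivFun_self]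
          split <;> simp
        have h2 : τ (l • b i) = l • τ (b i) := by
          rw [← he]; exact map_smul e l _
        rw [h1, hb] at h2
        exact hl (smul_left_injective L (b.ne_zero i) h2)
    have h2 := (H.subgroupOf N).card_mul_index
    rw [Nat.card_congr (Subgroup.subgroupOfEquivOfLe hHN).toEquiv, hH, h1] at h2
    exact h2.symm
  have hNi : N.index = 56 := by
    have h := N.card_mul_index
    rw [hcardN, hG] at h
    omega
  -- an element of order 5
  haveI : Fact (Nat.Prime 5) := ⟨by norm_num⟩
  obtain ⟨e₅, he₅⟩ := exists_prime_orderOf_dvd_card' (G := (V ≃ₗ[L] V)) 5 (by rw [hLin]; norm_num)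
  set u : V ≃ₗ[F] V := restrictHom e₅ with hu
  have huord : orderOf u = 5 := by
    rw [hu, orderOf_injective (restrictHom (F := F)) restrictHom_injective e₅, he₅]
  have huN : u ∈ N := hHN ⟨e₅, rfl⟩
  -- subspaces invariant under `u`
  have hu5 : IsPGroup 5 (Subgroup.zpowers u) :=
    IsPGroup.of_card (n := 1) (by rw [Nat.card_zpowers, huord, pow_one])
  have hsub : ∀ W : Submodule F V, (∀ y ∈ W, u y ∈ W) →
      (∀ y ∈ W, u y = y → y = 0) → W = ⊥ ∨ W = ⊤ := by
    intro W hW hfix
    have hinv : ∀ g ∈ Subgroup.zpowers u, ∀ y ∈ W, g y ∈ W := by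
      intro g hg y hy
      obtain ⟨k, rfl⟩ := mem_powers_iff_mem_zpowers.2 hg
      clear hg
      change (u ^ k) y ∈ W
      induction k with
      | zero => simpa using hy
      | succ k ih => rw [pow_succ', LinearEquiv.mul_apply]; exact hW _ ih
    letI : MulAction (Subgroup.zpowers u) W :=
      { smul := fun g y => ⟨(g : V ≃ₗ[F] V) y, hinv g g.2 y y.2⟩
        one_smul := fun y => rfl
        mul_smul := fun g h y => rfl }
    have h := hu5.card_modEq_card_fixedPoints W
    have hfp : Nat.card (MulAction.fixedPoints (Subgroup.zpowers u) W) = 1 := by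
      rw [Nat.card_eq_one_iff_unique]
      refine ⟨⟨fun a b => ?_⟩, ⟨⟨0, fun g => Subtype.ext (map_zero (g : V ≃ₗ[F] V))⟩⟩⟩
      have hz : ∀ a : MulAction.fixedPoints (Subgroup.zpowers u) W, (a : W) = 0 := fun a =>
        Subtype.ext (hfix _ a.1.2 (congrArg Subtype.val (a.2 ⟨u, Subgroup.mem_zpowers u⟩) :))
      exact Subtype.ext ((hz a).trans (hz b).symm)
    rw [hfp, Module.natCard_eq_pow_finrank (K := F), hF] at h
    have h4 := Submodule.finrank_le W
    rw [hV] at h4
    interval_cases hk : finrank F W <;> simp [Nat.ModEq] at h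
    · exact Or.inl (Submodule.finrank_eq_zero.1 hk)
    · exact Or.inr (Submodule.eq_top_of_finrank_eq (hk.trans hV.symm))
  have hfix : ∀ y, u y = y → y = 0 := by
    let W : Submodule F V := LinearMap.ker ((u : V →ₗ[F] V) - LinearMap.id)
    have hW : ∀ y, y ∈ W ↔ u y = y := fun y => by simp [W, sub_eq_zero]
    letI : MulAction (Subgroup.zpowers u) V :=
      { smul := fun g y => (g : V ≃ₗ[F] V) y
        one_smul := fun y => rfl
        mul_smul := fun g h y => rfl }
    have h := hu5.card_modEq_card_fixedPoints V
    have hfp : Nat.card (MulAction.fixedPoints (Subgroup.zpowers u) V) = Nat.card W := by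
      refine Nat.card_congr (Equiv.subtypeEquivRight fun y => ?_)
      rw [hW]
      refine ⟨fun hy => hy ⟨u, Subgroup.mem_zpowers u⟩, fun hy g => ?_⟩
      obtain ⟨k, hk⟩ := mem_powers_iff_mem_zpowers.2 g.2
      change (g : V ≃ₗ[F] V) y = y
      rw [← hk]
      clear hk
      change (u ^ k) y = y
      induction k with
      | zero => rfl
      | succ k ih => rw [pow_succ', LinearEquiv.mul_apply, ih, hy]
    rw [hfp, hVc, Module.natCard_eq_pow_finrank (K := F), hF] at h
    have h4 := Submodule.finrank_le W
    rw [hV] at h4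
    interval_cases hk : finrank F W <;> simp [Nat.ModEq] at h
    · intro y hy
      have := (hW y).2 hy
      rwa [Submodule.finrank_eq_zero.1 hk, Submodule.mem_bot] at this
    · exfalso
      have htop := Submodule.eq_top_of_finrank_eq (hk.trans hV.symm)
      have : u = 1 := LinearEquiv.ext fun y => (hW y).1 (htop ▸ Submodule.mem_top)
      rw [this, orderOf_one] at huord
      norm_num at huord
  -- the centraliser of `u` is a field
  let C : Subring (Module.End F V) := Subring.centralizer {(u : V →ₗ[F] V)}
  haveI : Finite (Module.End F V) := Finite.of_injective (fun e => (e : V → V)) DFunLike.coe_injective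
  have hCinj : ∀ c : Module.End F V, c ∈ C → c ≠ 0 → Function.Injective c := by
    intro c hc hc0
    have hcu : ∀ y, u (c y) = c (u y) := fun y =>
      LinearMap.congr_fun (Subring.mem_centralizer_iff.1 hc _ rfl) y
    rcases hsub (LinearMap.ker c) (fun y hy => by
      rw [LinearMap.mem_ker] at hy ⊢
      rw [← hcu, hy, map_zero]) (fun y _ hy => hfix y hy) with h | h
    · exact LinearMap.ker_eq_bot.1 h
    · exact absurd (LinearMap.ker_eq_top.1 h) hc0
  haveI : NoZeroDivisors C := ⟨fun {c d} hcd => by
    by_contra! h
    obtain ⟨hc, hd⟩ := h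
    refine hd (Subtype.ext (LinearMap.ext fun y =>
      hCinj c c.2 (fun h0 => hc (Subtype.ext h0)) ?_))
    rw [ZeroMemClass.coe_zero, LinearMap.zero_apply, map_zero]
    exact LinearMap.congr_fun (congrArg Subtype.val hcd) y⟩
  haveI : Nontrivial C := ⟨⟨0, 1, fun h => by
    have h' := congrArg Subtype.val h
    obtain ⟨v, hv⟩ := exists_ne (0 : V)
    exact hv (LinearMap.congr_fun h' v).symm⟩⟩
  haveI : IsDomain C := NoZeroDivisors.to_isDomain _
  have hrootle : ∀ f₁ f₂ : L → C, Function.Injective f₁ → (∀ l, f₁ l ^ 4 = f₁ l) →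
      (∀ l, f₂ l ^ 4 = f₂ l) → ∀ l, ∃ l', f₂ l = f₁ l' := by
    intro f₁ f₂ h1 hp1 hp2 l
    letI : Fintype C := Fintype.ofFinite C
    letI : DivisionRing C := Fintype.divisionRingOfIsDomain C
    letI : Field C := littleWedderburn C
    let P : Polynomial C := Polynomial.X ^ 4 - Polynomial.X
    have hP : P ≠ 0 := FiniteField.X_pow_card_sub_X_ne_zero C (by norm_num)
    have hdeg : P.natDegree = 4 := FiniteField.X_pow_card_sub_X_natDegree_eq C (by norm_num)
    letI : Fintype L := Fintype.ofFinite L
    have hsub' : Finset.univ.image f₁ ⊆ P.roots.toFinset := by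
      intro c hc
      obtain ⟨l, -, rfl⟩ := Finset.mem_image.1 hc
      rw [Multiset.mem_toFinset, Polynomial.mem_roots hP]
      simp [P, hp1]
    have hcard : P.roots.toFinset.card ≤ (Finset.univ.image f₁).card := by
      rw [Finset.card_image_of_injective _ h1, Finset.card_univ, Fintype.card_eq_nat_card, hL]
      exact (Multiset.toFinset_card_le _).trans ((Polynomial.card_roots' P).trans hdeg.le)
    have hmem : f₂ l ∈ P.roots.toFinset := by
      rw [Multiset.mem_toFinset, Polynomial.mem_roots hP]
      simp [P, hp2]
    rw [← Finset.eq_of_subset_of_card_le hsub' hcard] at hmem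
    obtain ⟨l', -, hl'⟩ := Finset.mem_image.1 hmem
    exact ⟨l', hl'.symm⟩
  -- only one fixed coset
  have huniq : ∀ g : V ≃ₗ[F] V, g⁻¹ * u * g ∈ N → g ∈ N := by
    intro g hg
    set u' := g⁻¹ * u * g with hu'
    choose f hf using hg
    obtain ⟨v, hv⟩ := exists_ne (0 : V)
    have hiter : ∀ (k : ℕ) (l : L) y, (u' ^ k) (l • y) = f^[k] l • (u' ^ k) y := by
      intro k
      induction k with
      | zero => intro l y; rfl
      | succ k ih =>
        intro l y
        rw [pow_succ', LinearEquiv.mul_apply, ih, hf, Function.iterate_succ_apply']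
        rfl
    have h5 : u' ^ 5 = 1 := by
      rw [hu', show g⁻¹ * u * g = (MulAut.conj g⁻¹) u by simp [MulAut.conj_apply], ← map_pow,
        ← huord, pow_orderOf_eq_one, map_one]
    have hf5 : ∀ l, f^[5] l = l := fun l => by
      have := hiter 5 l v
      rw [h5] at this
      exact (smul_left_injective L hv this.symm :)
    have hfid : ∀ l, f l = l := by
      intro l
      have hfinj : Function.Injective f := fun a b hab => by
        have h : u' (a • v) = u' (b • v) := by rw [hf, hf, hab]
        exact smul_left_injective L hv (u'.injective h)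
      by_contra hl
      letI : Fintype L := Fintype.ofFinite L
      let π : Equiv.Perm L := Equiv.ofBijective f ⟨hfinj, Finite.injective_iff_surjective.1 hfinj⟩
      have hπ : π ^ 5 = 1 := Equiv.ext fun a => by
        rw [← Equiv.Perm.iterate_eq_pow, Equiv.Perm.one_apply]
        exact hf5 a
      have hord : orderOf π = 5 := orderOf_eq_prime hπ fun h => hl (Equiv.congr_fun h l)
      have hd := orderOf_dvd_natCard π
      rw [hord, Nat.card_perm, hL] at hd
      norm_num [Nat.factorial] at hd
    have hcomm : ∀ (l : L) y, u (g (l • g.symm y)) = g (l • g.symm (u y)) := by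
      intro l y
      have h := congrArg g (hf l (g.symm y))
      rw [hfid] at h
      change g (g.symm (u (g (l • g.symm y)))) = g (l • g.symm (u (g (g.symm y)))) at h
      rwa [g.apply_symm_apply, g.apply_symm_apply] at h
    let f₁ : L → C := fun l =>
      ⟨(LinearMap.lsmul L V l).restrictScalars F, Subring.mem_centralizer_iff.2 fun z hz => by
        rw [Set.mem_singleton_iff] at hz
        subst hz
        exact LinearMap.ext fun y => map_smul e₅ l y⟩
    let f₂ : L → C := fun l =>
      ⟨(g : V →ₗ[F] V) ∘ₗ (LinearMap.lsmul L V l).restrictScalars F ∘ₗ (g.symm : V →ₗ[F] V),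
        Subring.mem_centralizer_iff.2 fun z hz => by
          rw [Set.mem_singleton_iff] at hz
          subst hz
          exact LinearMap.ext fun y => hcomm l y⟩
    letI : Fintype L := Fintype.ofFinite L
    have hl4 : ∀ l : L, l ^ 4 = l := fun l => by
      rw [show 4 = Fintype.card L by rw [Fintype.card_eq_nat_card, hL], FiniteField.pow_card]
    have hp1 : ∀ l, f₁ l ^ 4 = f₁ l := fun l => Subtype.ext (LinearMap.ext fun y => by
      change l • l • l • l • y = l • y
      rw [smul_smul, smul_smul, smul_smul, show l * l * l * l = l ^ 4 by ring, hl4])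
    have hp2 : ∀ l, f₂ l ^ 4 = f₂ l := fun l => Subtype.ext (LinearMap.ext fun y => by
      change g (l • g.symm (g (l • g.symm (g (l • g.symm (g (l • g.symm y))))))) = g (l • g.symm y)
      simp only [g.symm_apply_apply]
      rw [smul_smul, smul_smul, smul_smul, show l * l * l * l = l ^ 4 by ring, hl4])
    intro l
    obtain ⟨l', hl'⟩ := hrootle f₁ f₂ (fun a b h => smul_left_injective L hv
      (LinearMap.congr_fun (congrArg Subtype.val h) v)) hp1 hp2 l
    refine ⟨l', fun y => ?_⟩
    have := LinearMap.congr_fun (congrArg Subtype.val hl') (g y)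
    simpa [f₁, f₂] using this
  -- counting
  let X := (M : Subgroup (V ≃ₗ[F] V)) ⧸ N.subgroupOf M
  letI : MulAction (Subgroup.zpowers u) X := MulAction.compHom X
    (Subgroup.inclusion (Subgroup.zpowers_le.2 (hle huN)))
  have hmod := hu5.card_modEq_card_fixedPoints X
  have hfp : Nat.card (MulAction.fixedPoints (Subgroup.zpowers u) X) = 1 := by
    rw [Nat.card_eq_one_iff_unique]
    refine ⟨⟨fun a b => ?_⟩, ⟨⟨((1 : M) : X), fun k => ?_⟩⟩⟩
    · have hz : ∀ a : MulAction.fixedPoints (Subgroup.zpowers u) X, (a : X) = ((1 : M) : X) := by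
        rintro ⟨a, ha⟩
        induction a using QuotientGroup.induction_on with
        | _ g =>
          have h := ha ⟨u, Subgroup.mem_zpowers u⟩
          change (((⟨u, hle huN⟩ : M) * g : M) : X) = (g : X) at h
          have h' := QuotientGroup.eq.1 h.symm
          rw [Subgroup.mem_subgroupOf] at h'
          refine (QuotientGroup.eq.2 ?_).symm
          rw [Subgroup.mem_subgroupOf]
          simpa using huniq (g : V ≃ₗ[F] V) (by simpa [mul_assoc] using h')
      exact Subtype.ext ((hz a).trans (hz b).symm)
    · have hk : (k : V ≃ₗ[F] V) ∈ N := Subgroup.zpowers_le.2 huN k.2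
      change (((⟨(k : V ≃ₗ[F] V), hle hk⟩ : M) * 1 : M) : X) = ((1 : M) : X)
      rw [QuotientGroup.eq, Subgroup.mem_subgroupOf]
      simpa using hk
  rw [hfp, show Nat.card X = N.relIndex M from rfl] at hmod
  have hmul := Subgroup.relIndex_mul_index hle
  rw [hNi] at hmul
  have hd : N.relIndex M ∈ Nat.divisors 56 :=
    Nat.mem_divisors.2 ⟨⟨M.index, hmul.symm⟩, by norm_num⟩
  rw [show Nat.divisors 56 = {1, 2, 4, 7, 8, 14, 28, 56} by decide] at hd
  simp only [Finset.mem_insert, Finset.mem_singleton] at hd
  rcases hd with h | h | h | h | h | h | h | h <;> rw [h] at hmod hmul <;>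
    simp [Nat.ModEq] at hmod
  · exact absurd (Subgroup.relIndex_eq_one.1 h) hne
  · exact Subgroup.index_eq_one.1 (by omega)

end CfsgLib.FieldExtMax
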