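import Cfsg.Agent.FieldExtMax.CoeffSpace

/-!
If `M` moves some `L`-line to a non-`L`-line and its coefficient space is proper, two translates of
`L`-lines meeting in maximal dimension give a semilinear square-zero element, forcing
`(r, m, |F|) = (2, 2, 2)`.
-/

set_option autoImplicit false

namespace CfsgLib.FieldExtMax

open Module

variable {F L V : Type*} [Field F] [Field L] [Algebra F L] [AddCommGroup V] [Module F V]
  [Module L V] [IsScalarTower F L V] [FiniteDimensional L V] [Finite L] [FiniteDimensional F L]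
  [IsGalois F L] {M : Subgroup (V ≃ₗ[F] V)}

/-- `L a` as an `F`-subspace. -/
def lineF (L : Type*) [Field L] [Algebra F L] [Module L V] [IsScalarTower F L V] (a : V) :
    Submodule F V := (Submodule.span L {a}).restrictScalars F

lemma mem_lineF {a y : V} : y ∈ lineF L a (F := F) ↔ ∃ l : L, l • a = y :=
  Submodule.mem_span_singleton

lemma self_mem_lineF (a : V) : a ∈ lineF L a (F := F) := Submodule.mem_span_singleton_self a

lemma finrank_lineF {a : V} (ha : a ≠ 0) : finrank F (lineF L a (F := F)) = finrank F L := by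
  have h := (LinearEquiv.toSpanNonzeroSingleton L V a ha).restrictScalars F
  exact h.finrank_eq.symm

lemma lineF_eq_of_mem {a w : V} (hw : w ∈ lineF L a (F := F)) (hw0 : w ≠ 0) :
    lineF L w (F := F) = lineF L a := by
  obtain ⟨l, rfl⟩ := mem_lineF.1 hw
  have hl : l ≠ 0 := fun h => hw0 (by simp [h])
  rw [lineF, lineF, Submodule.span_singleton_smul_eq (isUnit_iff_ne_zero.2 hl)]

lemma isCoeff_one (hM : ContainsLin L M) : IsCoeff M (autBasis (1 : L ≃ₐ[F] L)) :=
  fun φ a ha => (inM_lin hM ha).congr fun y => by simp [autBasis_apply]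

lemma card_aut : Nat.card (L ≃ₐ[F] L) = finrank F L := IsGalois.card_aut_eq_finrank F L

lemma shift_eq_one (hM : ContainsLin L M) (hr : (finrank F L).Prime)
    (hprop : ∃ g : L ≃ₐ[F] L, ¬ IsCoeff M (autBasis g)) {k : L ≃ₐ[F] L}
    (hk : ∀ g : L ≃ₐ[F] L, IsCoeff M (autBasis g) → IsCoeff M (autBasis (k * g))) : k = 1 := by
  by_contra hne
  haveI := Fact.mk hr
  obtain ⟨g, hg⟩ := hprop
  obtain ⟨n, rfl⟩ := mem_powers_of_prime_card (G := L ≃ₐ[F] L) card_aut (g := k) (g' := g) hne
  refine hg ?_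
  change IsCoeff M (autBasis (k ^ n))
  clear hg
  induction n with
  | zero => rw [pow_zero]; exact isCoeff_one hM
  | succ n ih => rw [pow_succ']; exact hk _ ih

lemma aut_comm (hr : (finrank F L).Prime) (g k : L ≃ₐ[F] L) : g * k = k * g := by
  haveI := Fact.mk hr
  rcases eq_or_ne g 1 with rfl | hg
  · simp
  obtain ⟨n, rfl⟩ := mem_powers_of_prime_card (G := L ≃ₐ[F] L) card_aut (g := g) (g' := k) hg
  exact (Commute.self_pow g n).eq

/-- An element of `M` stabilising `L a` is semilinear there and modulo `L a`. -/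
lemma stab_semilinear (hM : ContainsLin L M) (hm : 2 ≤ finrank L V) (hr : (finrank F L).Prime)
    (hprop : ∃ g : L ≃ₐ[F] L, ¬ IsCoeff M (autBasis g)) {a : V} (ha : a ≠ 0)
    {x : V ≃ₗ[F] V} (hx : x ∈ M) (hxa : ∀ l : L, x (l • a) ∈ lineF L a (F := F)) :
    ∃ (σ : L ≃ₐ[F] L) (e : L), e ≠ 0 ∧ (∀ l : L, x (l • a) = (σ l * e) • a) ∧
      ∀ (l : L) (y : V), x (l • y) - σ l • x y ∈ lineF L a (F := F) := by
  have hr2 := hr.two_le
  obtain ⟨ψ, hψ, -⟩ := exists_functional (P := (⊥ : Submodule L V)) (w := a) (by simpa using ha)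
  let A : L →ₗ[F] L := ψ.restrictScalars F ∘ₗ (x : V →ₗ[F] V) ∘ₗ
    (LinearMap.toSpanSingleton L V a).restrictScalars F
  have hA : ∀ l, x (l • a) = A l • a := by
    intro l
    obtain ⟨c, hc⟩ := mem_lineF.1 (hxa l)
    have : A l = c := by
      change ψ (x (l • a)) = c
      rw [← hc, map_smul, hψ, smul_eq_mul, mul_one]
    rw [this, hc]
  have hAinj : Function.Injective A := fun b c h => by
    have h' : x (b • a) = x (c • a) := by rw [hA, hA, h]
    exact smul_left_injective L ha (x.injective h')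
  let A' : L ≃ₗ[F] L := LinearEquiv.ofBijective A ⟨hAinj, Finite.injective_iff_surjective.1 hAinj⟩
  have hA' : ∀ l, A' l = A l := fun l => rfl
  have hxs : ∀ l, x.symm (l • a) = A'.symm l • a := by
    intro l
    rw [LinearEquiv.symm_apply_eq, hA, ← hA', A'.apply_symm_apply]
  -- post-composition with a conjugated scalar preserves the coefficient space
  obtain ⟨b₀, hb₀⟩ : ∃ b, b ∉ Submodule.span L {a} := by
    by_contra! h
    have h1 := finrank_span_singleton (K := L) ha
    rw [show Submodule.span L {a} = ⊤ from eq_top_iff.2 fun y _ => h y, finrank_top] at h1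
    omega
  obtain ⟨χ, hχb, hχ⟩ := exists_functional hb₀
  have hχa : χ a = 0 := hχ a (Submodule.mem_span_singleton_self a)
  have hχ0 : χ ≠ 0 := fun h => by rw [h] at hχb; exact zero_ne_one hχb
  let X : L → (L →ₗ[F] L) := fun l =>
    A ∘ₗ (LinearMap.lsmul L L l).restrictScalars F ∘ₗ (A'.symm : L →ₗ[F] L)
  have hX : ∀ l τ, IsCoeff M τ → IsCoeff M (X l ∘ₗ τ) := by
    intro l τ hτ
    refine isCoeff_of_inM hM hm hr2 hχ0 ha hχa ?_
    have h0 : InM M (((x⁻¹ : V ≃ₗ[F] V) : V →ₗ[F] V) ∘ₗ rootMap τ χ a ∘ₗ (x : V →ₗ[F] V)) := by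
      simpa using (hτ χ a hχa).conj (M.inv_mem hx)
    have h1 := inM_smul hM hr2 ha h0 (fun y => ⟨A'.symm (τ (χ (x y))), by
        change x.symm (τ (χ (x y)) • a) = _
        rw [hxs]⟩) (fun c => by
        change x.symm (τ (χ (x (c • a))) • a) = 0
        rw [hA, map_smul χ, hχa, smul_zero, map_zero, zero_smul, map_zero]) l
    refine (h1.conj hx).congr fun y => ?_
    change A (l * A'.symm (τ (χ y))) • a = x (l • x.symm (τ (χ (x (x.symm y))) • a))
    rw [x.apply_symm_apply, hxs, smul_smul, hA]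
  have hsc : ∀ l, ∃ c : L, ∀ z, A (l * z) = c * A z := by
    intro l
    refine ⟨autBasis.repr (X l) 1, fun z => ?_⟩
    have hzero : ∀ h : L ≃ₐ[F] L, h ≠ 1 → autBasis.repr (X l) h = 0 := by
      intro h hh
      by_contra hne
      refine hh (shift_eq_one hM hr hprop fun g hg => isCoeff_aut (hX l _ hg) ?_)
      rwa [repr_comp_right, mul_inv_cancel_right]
    have h2 := sum_repr_apply (X l) (A z)
    rw [Finset.sum_eq_single (1 : L ≃ₐ[F] L) (fun h _ hh => by rw [hzero h hh, zero_mul])
      (fun h => absurd (Finset.mem_univ _) h), AlgEquiv.one_apply] at h2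
    rw [h2]
    change A (l * z) = A (l * A'.symm (A' z))
    rw [A'.symm_apply_apply]
  set e := A 1 with he
  have he0 : e ≠ 0 := fun h => one_ne_zero (hAinj (h.trans (map_zero A).symm))
  have hmul : ∀ l z, A (l * z) * e = A l * A z := by
    intro l z
    obtain ⟨c, hc⟩ := hsc l
    have h1 := hc 1
    rw [mul_one] at h1
    rw [hc z, h1, ← he]
    ring
  let σ₀ : L →ₐ[F] L :=
    { toFun := fun l => A l * e⁻¹
      map_one' := mul_inv_cancel₀ he0
      map_mul' := fun l z => by
        field_simp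
        exact hmul l z
      map_zero' := by simp
      map_add' := fun l z => by rw [map_add, add_mul]
      commutes' := fun c => by
        change A (algebraMap F L c) * e⁻¹ = _
        rw [Algebra.algebraMap_eq_smul_one, map_smul, smul_mul_assoc, ← he, mul_inv_cancel₀ he0] }
  let σ : L ≃ₐ[F] L := AlgEquiv.ofBijective σ₀
    ⟨σ₀.toRingHom.injective, Finite.injective_iff_surjective.1 σ₀.toRingHom.injective⟩
  have hσ : ∀ l, A l = σ l * e := fun l => by
    change A l = A l * e⁻¹ * e
    rw [inv_mul_cancel_right₀ he0]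
  refine ⟨σ, e, he0, fun l => by rw [hA, hσ], ?_⟩
  -- semilinearity modulo the line
  have hAeq : A = e • autBasis σ := LinearMap.ext fun l => by
    rw [hσ, LinearMap.smul_apply, autBasis_apply, smul_eq_mul, mul_comm]
  have hq : ∀ (φ : Dual L V), φ a = 0 → ∀ (b : V) (l : L),
      φ (x.symm (l • b)) = σ⁻¹ l * φ (x.symm b) := by
    intro φ hφ b l
    let q : L →ₗ[F] L := φ.restrictScalars F ∘ₗ (x.symm : V →ₗ[F] V) ∘ₗ
      (LinearMap.toSpanSingleton L V b).restrictScalars F
    have hqU : ∀ τ, IsCoeff M τ → IsCoeff M ((e • autBasis σ) ∘ₗ (τ ∘ₗ q)) := by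
      intro τ hτ
      refine isCoeff_coeff hM hm hr2 ha ((hτ φ a hφ).conj hx) (fun y => ?_) (fun c => ?_) b
        (fun c => ?_)
      · exact ⟨A (τ (φ (x.symm y))), hA _⟩
      · change x (τ (φ (x.symm (c • a))) • a) = 0
        rw [hxs, map_smul φ, hφ, smul_zero, map_zero, zero_smul, map_zero]
      · change x (τ (φ (x.symm (c • b))) • a) = (e • autBasis σ) (τ (q c)) • a
        rw [hA, ← hAeq]
        rfl
    have hsupp : ∀ h : L ≃ₐ[F] L, autBasis.repr q h ≠ 0 → h = σ⁻¹ := by
      intro h hh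
      refine eq_inv_of_mul_eq_one_right (shift_eq_one hM hr hprop fun g hg => ?_)
      have h2 : autBasis.repr (autBasis g ∘ₗ q) (g * h) = g (autBasis.repr q h) := by
        have := repr_comp g 1 q (g * h)
        rwa [one_smul, inv_mul_cancel_left, one_mul] at this
      refine isCoeff_aut (hqU _ hg) ?_
      rw [repr_comp, show σ⁻¹ * (σ * h * g) = g * h by
        rw [mul_assoc σ h g, inv_mul_cancel_left, aut_comm hr], h2]
      simp [he0, hh]
    have h2 := sum_repr_apply q l
    have h3 := sum_repr_apply q 1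
    rw [Finset.sum_eq_single σ⁻¹ (fun h _ hh => by
        rw [not_ne_iff.1 fun hne => hh (hsupp h hne), zero_mul])
      (fun h => absurd (Finset.mem_univ _) h)] at h2 h3
    rw [map_one, mul_one] at h3
    rw [h3] at h2
    have h4 : q 1 = φ (x.symm b) := by simp [q]
    rw [h4] at h2
    rw [mul_comm]
    exact h2.symm
  intro l y
  have hz : x.symm (σ l • x y) - l • y ∈ Submodule.span L {a} := by
    by_contra h
    obtain ⟨φ, h1, h2⟩ := exists_functional h
    have h3 := hq φ (h2 a (Submodule.mem_span_singleton_self a)) (x y) (σ l)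
    rw [x.symm_apply_apply, ← AlgEquiv.mul_apply, inv_mul_cancel, AlgEquiv.one_apply] at h3
    rw [map_sub, h3, map_smul, smul_eq_mul, sub_self] at h1
    exact zero_ne_one h1
  obtain ⟨c, hc⟩ := Submodule.mem_span_singleton.1 hz
  have h := congrArg x hc
  rw [map_sub, x.apply_symm_apply, hA] at h
  exact mem_lineF.2 ⟨-A c, by rw [neg_smul, h, neg_sub]⟩

/-- A square-zero element as produced by two meeting members is a twisted involution. -/
lemma twisted (hM : ContainsLin L M) (hm : 2 ≤ finrank L V) (hr : (finrank F L).Prime)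
    (hprop : ∃ g : L ≃ₐ[F] L, ¬ IsCoeff M (autBasis g)) {a : V} (ha : a ≠ 0)
    {x : V ≃ₗ[F] V} (hx : x ∈ M) (hxa : ∀ l : L, x (l • a) ∈ lineF L a (F := F))
    {N : V →ₗ[F] V} (hxN : ∀ y, x y = y + N y) (hN : ∀ y, N (N y) = 0)
    (hrank : finrank F (LinearMap.range N) = finrank F L)
    (hmeet : LinearMap.range N ⊓ lineF L a ≠ ⊥) (hne : LinearMap.range N ≠ lineF L a) :
    finrank F L = 2 ∧ finrank L V = 2 ∧
      ∃ (σ : L ≃ₐ[F] L) (e : L), σ ≠ 1 ∧ e ≠ 0 ∧ ∀ l : L, x (l • a) = (σ l * e) • a := by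
  obtain ⟨σ, e, he0, hσa, hσ⟩ := stab_semilinear hM hm hr hprop ha hx hxa
  haveI : FiniteDimensional F V := FiniteDimensional.trans F L V
  have hNa : ∀ l : L, N (l • a) = (σ l * e - l) • a := fun l => by
    rw [sub_smul, ← hσa, hxN, add_sub_cancel_left]
  obtain ⟨w₀, hw₀, hw₀0⟩ := Submodule.exists_mem_ne_zero_of_ne_bot hmeet
  rcases eq_or_ne σ 1 with rfl | hσ1
  · exfalso
    have he : e = 1 := by
      have h := hN ((1 : L) • a)
      rw [hNa, hNa, AlgEquiv.one_apply, smul_eq_zero] at h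
      have h' := h.resolve_right ha
      simp only [one_mul, AlgEquiv.one_apply] at h'
      have : (e - 1) ^ 2 = 0 := by linear_combination h'
      exact sub_eq_zero.1 (pow_eq_zero_iff two_ne_zero |>.1 this)
    have hle : LinearMap.range N ≤ lineF L a := by
      rintro _ ⟨y, rfl⟩
      by_contra hy
      have hk : ∀ l : L, N (l • y) - l • N y ∈ lineF L a (F := F) := fun l => by
        have := hσ l y
        rw [AlgEquiv.one_apply, hxN, hxN, smul_add] at this
        simpa using this
      let T : L →ₗ[F] V := N ∘ₗ (LinearMap.toSpanSingleton L V y).restrictScalars F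
      have hT : ∀ l, T l ∈ lineF L a (F := F) → l = 0 := by
        intro l hl
        by_contra hl0
        refine hy ?_
        have h1 : l • N y ∈ lineF L a (F := F) := by
          have := Submodule.sub_mem _ hl (hk l)
          simpa [T] using this
        obtain ⟨c, hc⟩ := mem_lineF.1 h1
        exact mem_lineF.2 ⟨l⁻¹ * c, by rw [mul_smul, hc, inv_smul_smul₀ hl0]⟩
      have hTinj : Function.Injective T := by
        rw [← LinearMap.ker_eq_bot, eq_bot_iff]
        intro l hl
        exact hT l (by rw [LinearMap.mem_ker.1 hl]; exact zero_mem _)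
      have hdisj : LinearMap.range T ⊓ (LinearMap.range N ⊓ lineF L a) = ⊥ := by
        rw [eq_bot_iff]
        rintro _ ⟨⟨l, rfl⟩, -, hl⟩
        rw [hT l hl, map_zero]
        exact zero_mem _
      have hsum := Submodule.finrank_sup_add_finrank_inf_eq (LinearMap.range T)
        (LinearMap.range N ⊓ lineF L a)
      rw [hdisj, finrank_bot, LinearMap.finrank_range_of_inj hTinj] at hsum
      have hle' : LinearMap.range T ⊔ (LinearMap.range N ⊓ lineF L a) ≤ LinearMap.range N :=
        sup_le (LinearMap.range_comp_le_range _ N) inf_le_left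
      have h1 := Submodule.finrank_mono hle'
      rw [hrank] at h1
      have h2 : 0 < finrank F ↥(LinearMap.range N ⊓ lineF L a) :=
        Nat.pos_of_ne_zero fun h => hmeet (Submodule.finrank_eq_zero.1 h)
      omega
    exact hne (Submodule.eq_of_le_of_finrank_eq hle (by rw [hrank, finrank_lineF ha]))
  · -- twisted case
    have hrel : ∀ l : L, σ (σ l) * (σ e * e) - 2 * e * σ l + l = 0 := by
      intro l
      have h := hN (l • a)
      rw [hNa, hNa, smul_eq_zero] at h
      have h' := h.resolve_right ha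
      rw [map_sub, map_mul] at h'
      linear_combination h'
    have hlin : (σ e * e) • autBasis (σ * σ) + (-(2 * e)) • autBasis σ
        + (1 : L) • autBasis (1 : L ≃ₐ[F] L) = 0 := LinearMap.ext fun l => by
      simp only [LinearMap.add_apply, LinearMap.smul_apply, autBasis_apply, smul_eq_mul,
        AlgEquiv.mul_apply, AlgEquiv.one_apply, LinearMap.zero_apply]
      linear_combination hrel l
    have hσσ : σ * σ = 1 := by
      by_contra hne2
      have h := congrArg (fun τ => autBasis.repr τ (1 : L ≃ₐ[F] L)) hlin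
      simp [map_add, map_smul, Basis.repr_self, hne2, Ne.symm hne2, hσ1, Ne.symm hσ1] at h
    have hr2 : finrank F L = 2 := by
      have h2 : orderOf σ = 2 := orderOf_eq_prime (by rw [sq, hσσ]) hσ1
      have hd : 2 ∣ finrank F L := by
        rw [← h2, ← card_aut (F := F) (L := L)]
        exact orderOf_dvd_natCard σ
      exact ((hr.eq_one_or_self_of_dvd 2 hd).resolve_left (by norm_num)).symm
    refine ⟨hr2, ?_, σ, e, hσ1, he0, hσa⟩
    obtain ⟨hw₀N, hw₀a⟩ := hw₀
    set W := LinearMap.range N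
    -- `W` lies in `L a + L w₁`
    obtain ⟨w₁, hw₁⟩ : ∃ w₁, W ≤ (Submodule.span L {a, w₁}).restrictScalars F := by
      obtain ⟨w₁, hw₁W, hw₁⟩ : ∃ w₁ ∈ W, w₁ ∉ F ∙ w₀ := by
        by_contra! h
        have h1 := Submodule.finrank_mono (show W ≤ F ∙ w₀ from h)
        rw [finrank_span_singleton hw₀0, hrank] at h1
        omega
      refine ⟨w₁, fun w hw => ?_⟩
      have hd : F ∙ w₀ ⊔ F ∙ w₁ = W := by
        refine Submodule.eq_of_le_of_finrank_le (sup_le ?_ ?_) ?_
        · simpa using hw₀N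
        · simpa using hw₁W
        · rw [hrank, hr2]
          have hlt : F ∙ w₀ < F ∙ w₀ ⊔ F ∙ w₁ := lt_of_le_of_ne le_sup_left fun h =>
            hw₁ (h ▸ Submodule.mem_sup_right (Submodule.mem_span_singleton_self w₁))
          have := Submodule.finrank_lt_finrank_of_lt hlt
          rw [finrank_span_singleton hw₀0] at this
          omega
      rw [← hd] at hw
      obtain ⟨u, hu, u', hu', rfl⟩ := Submodule.mem_sup.1 hw
      obtain ⟨c, rfl⟩ := Submodule.mem_span_singleton.1 hu
      obtain ⟨c', rfl⟩ := Submodule.mem_span_singleton.1 hu'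
      have h0 : w₀ ∈ Submodule.span L ({a, w₁} : Set V) :=
        Submodule.span_mono (by simp) hw₀a
      exact Submodule.add_mem _ (Submodule.smul_of_tower_mem _ c h0)
        (Submodule.smul_of_tower_mem _ c' (Submodule.subset_span (by simp)))
    have htop : Submodule.span L ({a, w₁} : Set V) = ⊤ := by
      rw [eq_top_iff]
      intro y _
      obtain ⟨l, hl⟩ : ∃ l : L, σ l ≠ l := by
        by_contra! h
        exact hσ1 (AlgEquiv.ext h)
      have h1 : N (l • y) ∈ Submodule.span L ({a, w₁} : Set V) := hw₁ ⟨_, rfl⟩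
      have h2 : σ l • N y ∈ Submodule.span L ({a, w₁} : Set V) :=
        Submodule.smul_mem _ _ (hw₁ ⟨_, rfl⟩)
      have h3 : x (l • y) - σ l • x y ∈ Submodule.span L ({a, w₁} : Set V) :=
        Submodule.span_mono (by simp) (hσ l y)
      have h4 : (σ l - l) • y ∈ Submodule.span L ({a, w₁} : Set V) := by
        have h5 := Submodule.sub_mem _ (Submodule.sub_mem _ h1 h2) h3
        rw [hxN, hxN] at h5
        convert h5 using 1
        rw [sub_smul, smul_add]
        abel
      have h5 := Submodule.smul_mem _ (σ l - l)⁻¹ h4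
      rwa [inv_smul_smul₀ (sub_ne_zero.2 hl)] at h5
    classical
    have h1 := finrank_span_finset_le_card (R := L) (M := V) {a, w₁}
    rw [Finset.coe_pair, Set.finrank, htop, finrank_top] at h1
    have h2 := h1.trans Finset.card_le_two
    omega

/-- The main dichotomy. -/
theorem coeff_univ_or_exceptional (hM : ContainsLin L M) (hm : 2 ≤ finrank L V)
    (hr : (finrank F L).Prime) (hne : ∃ g ∈ M, ∃ (x : V) (l : L), g (l • x) ∉ lineF L (g x) (F := F))
    (hprop : ∃ g : L ≃ₐ[F] L, ¬ IsCoeff M (autBasis g)) :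
    finrank F L = 2 ∧ finrank L V = 2 ∧ Nat.card F = 2 := by
  classical
  haveI : FiniteDimensional F V := FiniteDimensional.trans F L V
  haveI : Finite F := Finite.of_injective _ (algebraMap F L).injective
  let P : ℕ → Prop := fun k => ∃ (v x₀ : V) (h : V ≃ₗ[F] V), h ∈ M ∧ v ≠ 0 ∧ x₀ ≠ 0 ∧
    v ∈ (lineF L x₀).map (h : V →ₗ[F] V) ∧ (lineF L x₀).map (h : V →ₗ[F] V) ≠ lineF L v ∧
    finrank F ↥(lineF L v ⊓ (lineF L x₀).map (h : V →ₗ[F] V)) = k
  have hP : ∀ k, P k → k ≤ finrank F L := by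
    rintro k ⟨v, x₀, h, -, hv, -, -, -, rfl⟩
    exact (Submodule.finrank_mono inf_le_left).trans (finrank_lineF hv).le
  obtain ⟨k, hk, hmax⟩ : ∃ k, P k ∧ ∀ j, P j → j ≤ k := by
    obtain ⟨g, hg, x, l, hgl⟩ := hne
    have hx : x ≠ 0 := fun h => hgl (by simp [h])
    have h0 : P (finrank F ↥(lineF L (g x) ⊓ (lineF L x).map (g : V →ₗ[F] V))) :=
      ⟨g x, x, g, hg, by simpa using hx, hx, ⟨x, self_mem_lineF x, rfl⟩, fun h => hgl
        (h ▸ (⟨l • x, mem_lineF.2 ⟨l, rfl⟩, rfl⟩ :
          g (l • x) ∈ (lineF L x).map (g : V →ₗ[F] V))), rfl⟩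
    exact ⟨Nat.findGreatest P (finrank F L), Nat.findGreatest_spec (hP _ h0) h0,
      fun j hj => Nat.le_findGreatest (hP j hj) hj⟩
  obtain ⟨v, x₀, h, hh, hv, hx₀, hvS, hSne, hcard⟩ := hk
  set S' := (lineF L x₀).map (h : V →ₗ[F] V) with hS'
  have hdimS' : finrank F S' = finrank F L := by
    rw [hS', LinearEquiv.finrank_map_eq h, finrank_lineF hx₀]
  obtain ⟨u, huS, hu⟩ : ∃ u ∈ S', u ∉ lineF L v (F := F) := by
    by_contra! hc
    exact hSne (Submodule.eq_of_le_of_finrank_eq hc (by rw [hdimS', finrank_lineF hv]))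
  obtain ⟨φ, hφu, hφ⟩ := exists_functional (P := Submodule.span L {v}) hu
  have hφv : φ v = 0 := hφ v (Submodule.mem_span_singleton_self v)
  have hscal : ∀ c : F, ((algebraMap F L c) • φ) v = 0 := fun c => by simp [hφv]
  let t : F → (V ≃ₗ[F] V) := fun c => (LinearEquiv.transvection (hscal c)).restrictScalars F
  have htM : ∀ c, t c ∈ M := fun c => transvection_mem hM _
  have htap : ∀ c y, t c y = y + (algebraMap F L c * φ y) • v := fun c y => by
    simp only [t, LinearEquiv.restrictScalars_apply, LinearEquiv.transvection.apply]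
    rfl
  have hstab : ∀ c, c ≠ 0 → ∀ s ∈ S', t c s ∈ S' := by
    intro c hc
    by_contra hnot
    set S'' := S'.map (t c : V →ₗ[F] V) with hS''
    have hne' : S'' ≠ S' := fun he => hnot fun s hs =>
      he ▸ (⟨s, hs, rfl⟩ : t c s ∈ S'.map (t c : V →ₗ[F] V))
    have huT : u ∈ S'' := by
      refine ⟨u - c • v, Submodule.sub_mem _ huS (Submodule.smul_mem _ c hvS), ?_⟩
      change t c (u - c • v) = u
      rw [htap, map_sub, hφu, LinearMap.map_smul_of_tower, hφv, smul_zero, sub_zero, mul_one,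
        algebraMap_smul, sub_add_cancel]
    have hle : lineF L v ⊓ S' < S'' ⊓ S' := by
      refine lt_of_le_of_ne (le_inf (fun w hw => ?_) inf_le_right) fun he => ?_
      · refine ⟨w, hw.2, ?_⟩
        obtain ⟨l, rfl⟩ := mem_lineF.1 hw.1
        change t c (l • v) = _
        rw [htap, map_smul, hφv, smul_zero, mul_zero, zero_smul, add_zero]
      · exact hu (show u ∈ lineF L v ⊓ S' by rw [he]; exact ⟨huT, huS⟩).1
    have hlt := Submodule.finrank_lt_finrank_of_lt hle
    have hmw : h.symm u ∈ lineF L x₀ (F := F) := by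
      obtain ⟨z, hz, hzu⟩ := huS
      rw [← hzu]
      simpa using hz
    have hu0 : u ≠ 0 := fun h0 => hu (h0 ▸ zero_mem _)
    have hw0 : h.symm u ≠ 0 := by simpa using hu0
    have hline := lineF_eq_of_mem hmw hw0
    set h' : V ≃ₗ[F] V := h⁻¹ * t c * h with hh'
    have himg : (lineF L x₀).map (h' : V →ₗ[F] V) = S''.map (h.symm : V →ₗ[F] V) := by
      rw [hS'', hS', ← Submodule.map_comp, ← Submodule.map_comp]
      rfl
    have hpj : P (finrank F ↥(lineF L (h.symm u) ⊓ (lineF L x₀).map (h' : V →ₗ[F] V))) := by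
      refine ⟨h.symm u, x₀, h', M.mul_mem (M.mul_mem (M.inv_mem hh) (htM c)) hh, hw0, hx₀, ?_, ?_,
        rfl⟩
      · rw [himg]; exact ⟨u, huT, rfl⟩
      · rw [himg, hline]
        intro he
        apply hne'
        have := congrArg (Submodule.map (h : V →ₗ[F] V)) he
        rwa [← Submodule.map_comp, show (h : V →ₗ[F] V) ∘ₗ (h.symm : V →ₗ[F] V) = LinearMap.id from
          LinearMap.ext fun y => h.apply_symm_apply y, Submodule.map_id] at this
    have hdim : finrank F ↥(lineF L (h.symm u) ⊓ (lineF L x₀).map (h' : V →ₗ[F] V))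
        = finrank F ↥(S'' ⊓ S') := by
      have he : S'.map (h.symm : V →ₗ[F] V) = lineF L x₀ := by
        rw [hS', ← Submodule.map_comp, show (h.symm : V →ₗ[F] V) ∘ₗ (h : V →ₗ[F] V) = LinearMap.id from
          LinearMap.ext fun y => h.symm_apply_apply y, Submodule.map_id]
      rw [himg, hline, ← he, ← Submodule.map_inf _ h.symm.injective, LinearEquiv.finrank_map_eq,
        inf_comm]
    have := hmax _ hpj
    omega
  -- the twisted involutions
  let x' : F → (V ≃ₗ[F] V) := fun c => h⁻¹ * t c * h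
  have key : ∀ c, c ≠ 0 → finrank F L = 2 ∧ finrank L V = 2 ∧
      ∃ (σ : L ≃ₐ[F] L) (e : L), σ ≠ 1 ∧ e ≠ 0 ∧ ∀ l : L, x' c (l • x₀) = (σ l * e) • x₀ := by
    intro c hc
    let Nc : V →ₗ[F] V := (h.symm : V →ₗ[F] V) ∘ₗ
      rootMap (algebraMap F L c • LinearMap.id) φ v ∘ₗ (h : V →ₗ[F] V)
    have hNc : ∀ y, Nc y = h.symm ((algebraMap F L c * φ (h y)) • v) := fun y => rfl
    have hrange : LinearMap.range Nc = (lineF L v).map (h.symm : V →ₗ[F] V) := by
      ext y
      constructor
      · rintro ⟨z, rfl⟩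
        exact ⟨_, mem_lineF.2 ⟨algebraMap F L c * φ (h z), rfl⟩, (hNc z).symm⟩
      · rintro ⟨_, hl, rfl⟩
        obtain ⟨l, rfl⟩ := mem_lineF.1 hl
        have hc' : algebraMap F L c ≠ 0 := by simpa using hc
        refine ⟨h.symm (((algebraMap F L c)⁻¹ * l) • u), ?_⟩
        rw [hNc, h.apply_symm_apply, map_smul φ, hφu, smul_eq_mul, mul_one, mul_inv_cancel_left₀ hc']
        rfl
    refine twisted hM hm hr hprop hx₀ (M.mul_mem (M.mul_mem (M.inv_mem hh) (htM c)) hh) ?_
      (N := Nc) (fun y => ?_) (fun y => ?_) ?_ ?_ ?_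
    · intro l
      obtain ⟨z, hz, hz'⟩ := hstab c hc (h (l • x₀)) ⟨_, mem_lineF.2 ⟨l, rfl⟩, rfl⟩
      change h.symm (t c (h (l • x₀))) ∈ _
      rw [← hz']
      simpa using hz
    · change h.symm (t c (h y)) = _
      rw [htap, map_add, h.symm_apply_apply, hNc]
    · rw [hNc, hNc, h.apply_symm_apply, map_smul φ, hφv, smul_zero, mul_zero, zero_smul, map_zero]
    · rw [hrange, LinearEquiv.finrank_map_eq, finrank_lineF hv]
    · rw [hrange]
      intro hb
      obtain ⟨z, hz, hzv⟩ := hvS
      have hmem : h.symm v ∈ (lineF L v).map (h.symm : V →ₗ[F] V) ⊓ lineF L x₀ :=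
        ⟨⟨v, self_mem_lineF v, rfl⟩, by rw [← hzv]; simpa using hz⟩
      rw [hb, Submodule.mem_bot] at hmem
      exact hv (by simpa using hmem)
    · rw [hrange]
      intro he
      apply hSne
      have := congrArg (Submodule.map (h : V →ₗ[F] V)) he
      rw [← Submodule.map_comp, show (h : V →ₗ[F] V) ∘ₗ (h.symm : V →ₗ[F] V) = LinearMap.id from
        LinearMap.ext fun y => h.apply_symm_apply y, Submodule.map_id] at this
      exact this.symm
  obtain ⟨hr2, hm2, σ₁, e₁, hσ₁, he₁, h₁⟩ := key 1 one_ne_zero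
  refine ⟨hr2, hm2, ?_⟩
  by_contra hF
  obtain ⟨d, hd0, hd1⟩ : ∃ d : F, d ≠ 0 ∧ 1 + d ≠ 0 := by
    by_contra! hall
    refine hF ?_
    have h11 := hall 1 one_ne_zero
    have hsub : ∀ y : F, y = 0 ∨ y = 1 := fun y => by
      rcases eq_or_ne y 0 with h | h
      · exact Or.inl h
      · right; linear_combination hall y h - h11
    refine Nat.card_eq_two_iff.2 ⟨0, 1, zero_ne_one, Set.eq_univ_of_forall fun y => ?_⟩
    simpa using hsub y
  obtain ⟨-, -, σ₂, e₂, hσ₂, he₂, h₂⟩ := key d hd0
  obtain ⟨-, -, σ₃, e₃, hσ₃, he₃, h₃⟩ := key (1 + d) hd1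
  have hcomp : ∀ y, x' (1 + d) y = x' 1 (x' d y) := by
    intro y
    change h.symm (t (1 + d) (h y)) = h.symm (t 1 (h (h.symm (t d (h y)))))
    rw [h.apply_symm_apply]
    congr 1
    rw [htap, htap, htap, map_add φ, map_smul, hφv, smul_zero, add_zero, map_add, map_one, add_mul,
      add_smul]
    abel
  have hsm : ∀ l, σ₃ l * e₃ = σ₁ (σ₂ l) * (σ₁ e₂ * e₁) := by
    intro l
    have := hcomp (l • x₀)
    rw [h₃, h₂, h₁, map_mul, mul_assoc] at this
    exact smul_left_injective L hx₀ this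
  have he3 := hsm 1
  simp only [map_one, one_mul] at he3
  have heq : σ₃ = σ₁ * σ₂ := AlgEquiv.ext fun l => by
    have := hsm l
    rw [← he3] at this
    exact mul_right_cancel₀ he₃ this
  have hcard2 : Nat.card (L ≃ₐ[F] L) = 2 := card_aut.trans hr2
  haveI : Finite (L ≃ₐ[F] L) := Nat.finite_of_card_ne_zero (by rw [hcard2]; norm_num)
  have huniq : ∀ g k : L ≃ₐ[F] L, g ≠ 1 → k ≠ 1 → g = k := fun g k hg hk => by
    obtain ⟨p, q, hpq, huv⟩ := Nat.card_eq_two_iff.1 hcard2
    have hmem : ∀ z : L ≃ₐ[F] L, z = p ∨ z = q := fun z => by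
      have : z ∈ ({p, q} : Set (L ≃ₐ[F] L)) := huv ▸ Set.mem_univ z
      simpa using this
    rcases hmem 1 with h1 | h1 <;> rcases hmem g with h2 | h2 <;> rcases hmem k with h3 | h3 <;>
      simp_all
  have h21 : σ₁ = σ₂ := huniq _ _ hσ₁ hσ₂
  have h31 : σ₃ = σ₁ := huniq _ _ hσ₃ hσ₁
  rw [h31, ← h21, left_eq_mul] at heq
  exact hσ₁ heq

end CfsgLib.FieldExtMax
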