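import Cfsg.Agent.FieldExtMax.FourTwo

/-!
A group properly containing the semilinear maps of determinant one contains every transvection.
-/

set_option autoImplicit false

namespace CfsgLib.FieldExtMax

open Module

variable {F L V : Type*} [Field F] [Field L] [Algebra F L] [AddCommGroup V] [Module F V]
  [Module L V] [IsScalarTower F L V] [Finite L] [Finite V] [FiniteDimensional F L] [IsGalois F L]

/-- Maps sending lines into lines are semilinear. -/
lemma mem_semiLin_of_lines (hm : 2 ≤ finrank L V) {g : V ≃ₗ[F] V}
    (hg : ∀ (x : V) (l : L), g (l • x) ∈ lineF L (g x) (F := F)) : g ∈ semiLin F L V := by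
  classical
  haveI : FiniteDimensional L V := Module.Finite.of_finite
  intro l
  choose c hc using fun x => mem_lineF.1 (hg x l)
  have hsurj : ∀ x, x ≠ 0 → ∀ d : L, ∃ b : L, g (b • x) = d • g x := by
    intro x hx
    choose f hf using fun b => mem_lineF.1 (hg x b)
    have hgx : g x ≠ 0 := by simpa using hx
    have hinj : Function.Injective f := fun a b hab =>
      smul_left_injective L hx (g.injective (by
        rw [← hf a, ← hf b, hab]))
    intro d
    obtain ⟨b, hb⟩ := Finite.injective_iff_surjective.1 hinj d
    exact ⟨b, by rw [← hf b, hb]⟩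
  have hind : ∀ x y, x ≠ 0 → y ∉ Submodule.span L {x} → c x = c y := by
    intro x y hx hy
    have hxy : g y ∉ Submodule.span L {g x} := by
      intro h
      obtain ⟨d, hd⟩ := Submodule.mem_span_singleton.1 h
      obtain ⟨b, hb⟩ := hsurj x hx d
      exact hy (Submodule.mem_span_singleton.2 ⟨b, g.injective (hb.trans hd)⟩)
    have h := hc (x + y)
    rw [smul_add l x y, map_add g, map_add g, ← hc x, ← hc y] at h
    have hli : ∀ a b : L, a • g x + b • g y = 0 → a = 0 ∧ b = 0 := by
      intro a b hab
      have hb : b = 0 := by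
        by_contra hb
        refine hxy (Submodule.mem_span_singleton.2 ⟨-(b⁻¹ * a), ?_⟩)
        have h' := congrArg (fun z => b⁻¹ • z) hab
        simp only [smul_add, smul_zero, inv_smul_smul₀ hb, smul_smul] at h'
        rw [neg_smul, eq_comm, eq_neg_iff_add_eq_zero, add_comm]
        exact h'
      refine ⟨?_, hb⟩
      rw [hb, zero_smul, add_zero] at hab
      exact (smul_eq_zero.1 hab).resolve_right (by simpa using hx)
    have h2 := hli (c (x + y) - c x) (c (x + y) - c y) (by
      rw [smul_add] at h
      rw [sub_smul, sub_smul, sub_add_sub_comm, h, sub_self])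
    rw [sub_eq_zero.1 h2.1] at h2
    exact sub_eq_zero.1 h2.2
  obtain ⟨v, hv⟩ : ∃ v : V, v ≠ 0 := by
    haveI : Nontrivial V := Module.nontrivial_of_finrank_pos (R := L) (by omega)
    exact exists_ne 0
  obtain ⟨w, hw⟩ : ∃ w, w ∉ Submodule.span L {v} := by
    by_contra! h
    have h1 := finrank_span_singleton (K := L) hv
    rw [show Submodule.span L {v} = ⊤ from eq_top_iff.2 fun y _ => h y, finrank_top] at h1
    omega
  refine ⟨c v, fun y => ?_⟩
  rcases eq_or_ne y 0 with rfl | hy
  · simp
  by_cases hyv : y ∈ Submodule.span L {v}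
  · have hw' : w ∉ Submodule.span L {y} := fun h =>
      hw ((Submodule.span_singleton_le_iff_mem _ _).2 hyv h)
    rw [hind v w hv hw, ← hind y w hy hw', hc]
  · rw [hind v y hv hyv, hc]

/-- The abstract maximality statement. -/
theorem transvection_mem_of_not_le (hm : 2 ≤ finrank L V) (hr : (finrank F L).Prime)
    {M : Subgroup (V ≃ₗ[F] V)}
    (hN : ∀ g ∈ semiLin F L V, LinearMap.det (g : V →ₗ[F] V) = 1 → g ∈ M)
    (hne : ¬ M ≤ semiLin F L V) {χ : Dual F V} {u : V} (hu : χ u = 0) :
    InM M (LinearMap.smulRight χ u) := by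
  classical
  haveI : FiniteDimensional L V := Module.Finite.of_finite
  haveI : Finite F := Finite.of_injective _ (algebraMap F L).injective
  have hM : ContainsLin L M := fun e he => hN _ (fun l => ⟨l, fun y => map_smul e l y⟩)
    (by
      change LinearMap.det ((e : V →ₗ[L] V).restrictScalars F) = 1
      rw [LinearMap.det_restrictScalars, he])
  obtain ⟨g, hgM, hg⟩ := SetLike.not_le_iff_exists.1 hne
  have hmove : ∃ g ∈ M, ∃ (x : V) (l : L), g (l • x) ∉ lineF L (g x) (F := F) := by
    by_contra! h
    exact hg (mem_semiLin_of_lines hm fun x l => h g hgM x l)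
  by_cases hall : ∀ k : L ≃ₐ[F] L, IsCoeff M (autBasis k)
  · exact inM_transvection hM hm hr.two_le (isCoeff_of_forall_aut hall) hu
  · push Not at hall
    obtain ⟨hr2, hm2, hF⟩ := coeff_univ_or_exceptional hM hm hr hmove hall
    have hdet : ∀ k : V ≃ₗ[F] V, LinearMap.det (k : V →ₗ[F] V) = 1 := fun k => by
      letI := Fintype.ofFinite F
      have h1 := FiniteField.pow_card_sub_one_eq_one (LinearMap.det (k : V →ₗ[F] V))
        k.isUnit_det'.ne_zero
      rwa [Fintype.card_eq_nat_card, hF, pow_one] at h1
    have htop := semiLin_maximal_four_two hF hr2 hm2 (fun k hk => hN k hk (hdet k)) hne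
    exact ⟨LinearEquiv.transvection hu, htop ▸ Subgroup.mem_top _, fun y =>
      LinearEquiv.transvection.apply hu y⟩

end CfsgLib.FieldExtMax
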