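import Cfsg.Agent.FieldExtMax.Main
import Cfsg.Agent.Classical.TransvAlg
import Cfsg.Agent.Aschbacher.Proper

/-!
Maximality of the normaliser of an extension field in `GL` and `SL`.
-/

set_option autoImplicit false

namespace CfsgLib.FieldExtMax

open Module Matrix

variable {ι : Type} [Fintype ι] [DecidableEq ι] {F : Type*} [Field F] [Fintype F]
  {r : ℕ} {K : Subalgebra F (Matrix ι ι F)}

/-- A field subalgebra as a field. -/
@[reducible] noncomputable def fieldOf (hK : Cfsg.Geo.IsFieldSubalgebra r K) [Nonempty ι] : Field K :=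
  let R : CommRing K :=
    { (inferInstance : Ring K) with mul_comm := fun x y => Subtype.ext (hK.comm x x.2 y y.2) }
  @IsField.toField K (inferInstance : Ring K) (
    { exists_pair_ne := ⟨0, 1, zero_ne_one⟩
      mul_comm := R.mul_comm
      mul_inv_cancel := fun {x} hx => by
        obtain ⟨y, hy, hxy⟩ := hK.inv x x.2 fun h => hx (Subtype.ext h)
        exact ⟨⟨y, hy⟩, Subtype.ext hxy⟩ })

/-- The natural module of a subalgebra of matrices. -/
@[reducible] def moduleOf (K : Subalgebra F (Matrix ι ι F)) : Module K (ι → F) where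
  smul k y := (k : Matrix ι ι F) *ᵥ y
  one_smul y := one_mulVec y
  mul_smul k l y := (mulVec_mulVec y (k : Matrix ι ι F) (l : Matrix ι ι F)).symm
  smul_zero k := mulVec_zero (k : Matrix ι ι F)
  smul_add k y z := mulVec_add (k : Matrix ι ι F) y z
  add_smul k l y := add_mulVec (k : Matrix ι ι F) (l : Matrix ι ι F) y
  zero_smul y := zero_mulVec y

/-- `GL` as the group of linear automorphisms. -/
noncomputable def glEquiv : GL ι F ≃* ((ι → F) ≃ₗ[F] (ι → F)) :=
  Matrix.GeneralLinearGroup.toLin.trans (LinearMap.GeneralLinearGroup.generalLinearEquiv F (ι → F))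

lemma glEquiv_apply (g : GL ι F) (y : ι → F) : glEquiv g y = (g : Matrix ι ι F) *ᵥ y := rfl

/-- Semilinearity is normalisation. -/
lemma mem_normalizer_iff (hK : Cfsg.Geo.IsFieldSubalgebra r K) (g : GL ι F) :
    g ∈ Cfsg.Geo.subalgebraNormalizer K ↔ ∀ k ∈ K, ∃ k' ∈ K, ∀ y : ι → F,
      (g : Matrix ι ι F) *ᵥ (k *ᵥ y) = k' *ᵥ ((g : Matrix ι ι F) *ᵥ y) := by
  classical
  constructor
  · intro hg k hk
    refine ⟨_, (hg k).1 hk, fun y => ?_⟩
    rw [mulVec_mulVec, mulVec_mulVec, mul_assoc _ _ (g : Matrix ι ι F), ← Units.val_mul,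
      inv_mul_cancel, Units.val_one, mul_one]
  · intro h k
    have hfor : ∀ k ∈ K, (g : Matrix ι ι F) * k * ((g⁻¹ : GL ι F) : Matrix ι ι F) ∈ K := by
      intro k hk
      obtain ⟨k', hk', he⟩ := h k hk
      have hmat : (g : Matrix ι ι F) * k = k' * (g : Matrix ι ι F) :=
        Matrix.ext_of_mulVec_single fun i => by rw [← mulVec_mulVec, he, mulVec_mulVec]
      rw [hmat, mul_assoc, ← Units.val_mul, mul_inv_cancel, Units.val_one, mul_one]
      exact hk'
    refine ⟨hfor k, fun hk => ?_⟩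
    -- surjectivity of conjugation on the finite set `K`
    let f : K → K := fun x => ⟨_, hfor x.1 x.2⟩
    have hinj : Function.Injective f := fun a b hab => by
      have h' := congrArg (fun z => ((g⁻¹ : GL ι F) : Matrix ι ι F) * z * (g : Matrix ι ι F))
        (congrArg Subtype.val hab)
      simpa [f, ← mul_assoc, ← Units.val_mul, mul_assoc] using Subtype.ext (by
        simpa [f, mul_assoc, ← Units.val_mul] using h')
    obtain ⟨a, ha⟩ := Finite.injective_iff_surjective.1 hinj ⟨_, hk⟩
    have h' := congrArg (fun z => ((g⁻¹ : GL ι F) : Matrix ι ι F) * z * (g : Matrix ι ι F))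
      (congrArg Subtype.val ha)
    have hak : (a : Matrix ι ι F) = k := by simpa [f, mul_assoc, ← Units.val_mul] using h'
    exact hak ▸ a.2

/-- `SL` lies in every group properly containing the normaliser in `SL`. -/
theorem specialLinear_le (hK : Cfsg.Geo.IsFieldSubalgebra r K) (hr : r.Prime)
    (hlt : r < Fintype.card ι) {M : Subgroup (GL ι F)}
    (hle : Cfsg.Geo.subalgebraNormalizer K ⊓ Cfsg.Geo.specialLinear ι F ≤ M)
    (hne : ¬ M ⊓ Cfsg.Geo.specialLinear ι F ≤ Cfsg.Geo.subalgebraNormalizer K) :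
    Cfsg.Geo.specialLinear ι F ≤ M := by
  classical
  haveI : Nonempty ι := Fintype.card_pos_iff.1 (by omega)
  letI : Field K := fieldOf hK
  letI : Module K (ι → F) := moduleOf K
  haveI : IsScalarTower F K (ι → F) := ⟨fun c k y => smul_mulVec c (k : Matrix ι ι F) y⟩
  haveI : Finite K := inferInstance
  haveI : FiniteDimensional F K := Module.Finite.of_finite
  haveI : IsGalois F K := GaloisField.instIsGaloisOfFinite
  have hfr : finrank F K = r := hK.finrank_eq
  have hm : 2 ≤ finrank K (ι → F) := by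
    have h := Module.finrank_mul_finrank F K (ι → F)
    rw [hfr, Module.finrank_pi] at h
    by_contra! h2
    interval_cases hh : finrank K (ι → F) <;> omega
  have hsemi : ∀ g : GL ι F, glEquiv g ∈ semiLin F K (ι → F) ↔
      g ∈ Cfsg.Geo.subalgebraNormalizer K := by
    intro g
    rw [mem_normalizer_iff hK]
    constructor
    · intro h k hk
      obtain ⟨l, hl⟩ := h ⟨k, hk⟩
      exact ⟨l, l.2, fun y => hl y⟩
    · intro h l
      obtain ⟨k', hk', he⟩ := h l l.2
      exact ⟨⟨k', hk'⟩, fun y => he y⟩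
  have hdet : ∀ g : GL ι F, g ∈ Cfsg.Geo.specialLinear ι F ↔
      LinearMap.det (glEquiv g : (ι → F) →ₗ[F] (ι → F)) = 1 := by
    intro g
    rw [show (glEquiv g : (ι → F) →ₗ[F] (ι → F)) = Matrix.toLin' (g : Matrix ι ι F) from
      LinearMap.ext fun y => glEquiv_apply g y, LinearMap.det_toLin', Cfsg.Geo.specialLinear,
      MonoidHom.mem_ker, Units.ext_iff]
    rfl
  set MV := (M ⊓ Cfsg.Geo.specialLinear ι F).map (glEquiv (ι := ι) (F := F)).toMonoidHom
  have hN : ∀ e ∈ semiLin F K (ι → F), LinearMap.det (e : (ι → F) →ₗ[F] (ι → F)) = 1 → e ∈ MV := by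
    intro e he hde
    obtain ⟨g, rfl⟩ := (glEquiv (ι := ι) (F := F)).surjective e
    have hg : g ∈ Cfsg.Geo.specialLinear ι F := (hdet g).2 hde
    exact ⟨g, ⟨hle ⟨(hsemi g).1 he, hg⟩, hg⟩, rfl⟩
  have hneV : ¬ MV ≤ semiLin F K (ι → F) := fun h =>
    hne fun g hg => (hsemi g).1 (h ⟨g, hg, rfl⟩)
  refine TransvGL.specialLinear_le_of_transv_mem M fun φ v hφ => ?_
  obtain ⟨e, ⟨g, hg, rfl⟩, hey⟩ := transvection_mem_of_not_le (L := K) hm (hfr ▸ hr) hN hneV hφ
  rw [show TransvGL.transv hφ = g from TransvGL.ext_mulVec fun y => by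
    rw [TransvGL.transv_mulVec, ← glEquiv_apply g y]
    exact (hey y).symm]
  exact hg.1

/-- Elements of the normaliser with any determinant. -/
theorem exists_normalizer_det (hK : Cfsg.Geo.IsFieldSubalgebra r K) (hr : r.Prime)
    (hlt : r < Fintype.card ι) (c : Fˣ) :
    ∃ g ∈ Cfsg.Geo.subalgebraNormalizer K, Matrix.GeneralLinearGroup.det g = c := by
  classical
  haveI : Nonempty ι := Fintype.card_pos_iff.1 (by omega)
  letI : Field K := fieldOf hK
  letI : Module K (ι → F) := moduleOf K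
  haveI : IsScalarTower F K (ι → F) := ⟨fun c k y => smul_mulVec c (k : Matrix ι ι F) y⟩
  haveI : FiniteDimensional F K := Module.Finite.of_finite
  haveI : FiniteDimensional K (ι → F) := Module.Finite.of_finite
  obtain ⟨l, hl⟩ := FiniteField.norm_surjective F K (c : F)
  have hl0 : l ≠ 0 := by
    intro h0
    rw [h0, Algebra.norm_zero] at hl
    exact c.ne_zero hl.symm
  obtain ⟨a, ha⟩ := exists_ne (0 : ι → F)
  obtain ⟨ψ, hψ, -⟩ := exists_functional (L := K) (P := (⊥ : Submodule K (ι → F))) (w := a)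
    (by simpa using ha)
  have hu : IsUnit (1 + ((l - 1) • ψ) a) := by
    rw [LinearMap.smul_apply, hψ, smul_eq_mul, mul_one, add_sub_cancel]
    exact isUnit_iff_ne_zero.2 hl0
  set d := LinearEquiv.dilatransvection hu
  set g := (glEquiv (ι := ι) (F := F)).symm (d.restrictScalars F)
  have hgy : ∀ y, (g : Matrix ι ι F) *ᵥ y = d y := fun y => by
    rw [← glEquiv_apply g y]
    simp [g]
  refine ⟨g, (mem_normalizer_iff hK g).2 fun k hk => ⟨k, hk, fun y => ?_⟩, Units.ext ?_⟩
  · rw [hgy, hgy]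
    exact map_smul d (⟨k, hk⟩ : K) y
  · change (g : Matrix ι ι F).det = (c : F)
    rw [← LinearMap.det_toLin', show Matrix.toLin' (g : Matrix ι ι F)
      = ((d : (ι → F) →ₗ[K] (ι → F)).restrictScalars F) from LinearMap.ext fun y => hgy y,
      LinearMap.det_restrictScalars, LinearEquiv.dilatransvection.coe_toLinearMap,
      LinearMap.transvection.det, LinearMap.smul_apply, hψ, smul_eq_mul, mul_one, add_sub_cancel, hl]

theorem normalizer_maximal (hK : Cfsg.Geo.IsFieldSubalgebra r K) (hr : r.Prime)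
    (hrn : r ∣ Fintype.card ι) (hlt : r < Fintype.card ι) :
    IsCoatom (Cfsg.Geo.subalgebraNormalizer K) ∧
      Cfsg.Geo.IsMaximalIn (Cfsg.Geo.specialLinear ι F)
        (Cfsg.Geo.subalgebraNormalizer K ⊓ Cfsg.Geo.specialLinear ι F) := by
  have h3 : 3 ≤ Fintype.card ι := by
    obtain ⟨k, hk⟩ := hrn
    have := hr.two_le
    rcases Nat.lt_or_ge k 2 with h | h
    · interval_cases k <;> omega
    · nlinarith
  have hproper := Aschbacher.not_le_subalgebraNormalizer h3 hK hr.two_le
  refine ⟨⟨fun htop => hproper (htop ▸ le_top), fun M hM => ?_⟩,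
    ⟨lt_of_le_of_ne inf_le_right fun h => hproper (h ▸ inf_le_left), fun M hle hMS => ?_⟩⟩
  · obtain ⟨g, hgM, hgN⟩ := SetLike.exists_of_lt hM
    have hSL : Cfsg.Geo.specialLinear ι F ≤ M := by
      refine specialLinear_le hK hr hlt (inf_le_left.trans hM.le) fun h => ?_
      obtain ⟨n, hn, hdet⟩ := exists_normalizer_det hK hr hlt (Matrix.GeneralLinearGroup.det g)
      have : g * n⁻¹ ∈ Cfsg.Geo.subalgebraNormalizer K :=
        h ⟨M.mul_mem hgM (M.inv_mem (hM.le hn)), by
          show Matrix.GeneralLinearGroup.det (g * n⁻¹) = 1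
          rw [map_mul, map_inv, hdet, mul_inv_cancel]⟩
      exact hgN (by simpa using (Cfsg.Geo.subalgebraNormalizer K).mul_mem this hn)
    rw [eq_top_iff]
    intro x _
    obtain ⟨n, hn, hdet⟩ := exists_normalizer_det hK hr hlt (Matrix.GeneralLinearGroup.det x)
    have hx : x * n⁻¹ ∈ M := hSL (by
      rw [Cfsg.Geo.specialLinear, MonoidHom.mem_ker, map_mul, map_inv, hdet, mul_inv_cancel])
    simpa using M.mul_mem hx (hM.le hn)
  · by_cases h : M ≤ Cfsg.Geo.subalgebraNormalizer K
    · exact Or.inl (le_antisymm (le_inf h hMS) hle)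
    · refine Or.inr (le_antisymm hMS (specialLinear_le hK hr hlt hle fun h' => ?_))
      exact h fun x hx => h' ⟨hx, hMS hx⟩

end CfsgLib.FieldExtMax
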