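import Cfsg.Agent.FieldExtMax.Intersection

/-!
If the coefficient space is everything, `M` contains all `F`-transvections.
-/

set_option autoImplicit false

namespace CfsgLib.FieldExtMax

open Module

variable {F L V : Type*} [Field F] [Field L] [Algebra F L] [AddCommGroup V] [Module F V]
  [Module L V] [IsScalarTower F L V] [FiniteDimensional L V] [Finite L] [FiniteDimensional F L]
  [IsGalois F L] {M : Subgroup (V ≃ₗ[F] V)}

/-- `trace ∘ φ`. -/
noncomputable def traceDual : Dual L V →ₗ[F] Dual F V where
  toFun φ := Algebra.trace F L ∘ₗ φ.restrictScalars F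
  map_add' φ φ' := LinearMap.ext fun y => by simp
  map_smul' c φ := LinearMap.ext fun y => by simp

lemma traceDual_apply (φ : Dual L V) (y : V) : traceDual (F := F) φ y = Algebra.trace F L (φ y) :=
  rfl

lemma traceDual_surjective : Function.Surjective (traceDual (F := F) (L := L) (V := V)) := by
  haveI : FiniteDimensional F V := FiniteDimensional.trans F L V
  have hinj : Function.Injective (traceDual (F := F) (L := L) (V := V)) := by
    rw [← LinearMap.ker_eq_bot, eq_bot_iff]
    intro φ hφ
    by_contra h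
    obtain ⟨y, hy⟩ : ∃ y, φ y ≠ 0 := by
      by_contra! h'
      exact h (by simp [LinearMap.ext h' (g := 0)])
    obtain ⟨c, hc⟩ := Algebra.trace_surjective F L 1
    have h1 := LinearMap.congr_fun (LinearMap.mem_ker.1 hφ) ((c * (φ y)⁻¹) • y)
    rw [traceDual_apply, map_smul φ, smul_eq_mul, inv_mul_cancel_right₀ hy, hc] at h1
    exact one_ne_zero h1
  haveI : FiniteDimensional F (Dual L V) := FiniteDimensional.trans F L (Dual L V)
  refine (LinearMap.injective_iff_surjective_of_finrank_eq_finrank ?_).1 hinj
  rw [← Module.finrank_mul_finrank F L (Dual L V), Subspace.dual_finrank_eq, Subspace.dual_finrank_eq,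
    Module.finrank_mul_finrank]

/-- Transvections whose functional kills the centre line. -/
lemma inM_transv_of_line (hall : ∀ τ : L →ₗ[F] L, IsCoeff M τ) {ψ : Dual F V} {v : V}
    (h : ∀ l : L, ψ (l • v) = 0) : InM M (LinearMap.smulRight ψ v) := by
  obtain ⟨φ, rfl⟩ := traceDual_surjective (L := L) ψ
  have hv : φ v = 0 := by
    by_contra hne
    obtain ⟨c, hc⟩ := Algebra.trace_surjective F L 1
    have := h (c * (φ v)⁻¹)
    rw [traceDual_apply, map_smul φ, smul_eq_mul, inv_mul_cancel_right₀ hne, hc] at this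
    exact one_ne_zero this
  refine ((hall (Algebra.linearMap F L ∘ₗ Algebra.trace F L)) φ v hv).congr fun y => ?_
  simp [traceDual_apply, algebraMap_smul]

/-- All transvections. -/
theorem inM_transvection (hM : ContainsLin L M) (hm : 2 ≤ finrank L V) (hr : 2 ≤ finrank F L)
    (hall : ∀ τ : L →ₗ[F] L, IsCoeff M τ) {χ : Dual F V} {u : V} (hu : χ u = 0) :
    InM M (LinearMap.smulRight χ u) := by
  classical
  haveI : FiniteDimensional F V := FiniteDimensional.trans F L V
  rcases eq_or_ne u 0 with rfl | hu0
  · exact InM.zero.congr fun y => by simp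
  let A : V → Submodule F V := fun w => F ∙ u ⊔ lineF L w
  let T : Submodule F (Dual F V) :=
    { carrier := {χ | χ u = 0 ∧ ∀ c : F, InM M (LinearMap.smulRight (c • χ) u)}
      zero_mem' := ⟨rfl, fun c => InM.zero.congr fun y => by simp⟩
      add_mem' := fun {a b} ha hb => ⟨by simp [ha.1, hb.1], fun c =>
        ((ha.2 c).add (hb.2 c) fun y => by simp [ha.1]).congr fun y => by simp [add_smul, mul_add]⟩
      smul_mem' := fun d a ha => ⟨by simp [ha.1], fun c => by
        rw [smul_smul]; exact ha.2 _⟩ }
  have hA : ∀ w, w ∉ Submodule.span L {u} → (A w).dualAnnihilator ≤ T := by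
    intro w hw χ' hχ'
    rw [Submodule.mem_dualAnnihilator] at hχ'
    have hχu : χ' u = 0 := hχ' u (Submodule.mem_sup_left (Submodule.mem_span_singleton_self u))
    refine ⟨hχu, fun c => ?_⟩
    have hline : ∀ l : L, (c • χ') (l • w) = 0 := fun l => by
      simp [hχ' (l • w) (Submodule.mem_sup_right (mem_lineF.2 ⟨l, rfl⟩))]
    obtain ⟨f, hfw, hf⟩ := exists_functional hw
    obtain ⟨t, ht⟩ := Algebra.trace_surjective F L 1
    let ψ : Dual F V := traceDual (t • f)
    have hψw : ψ w = 1 := by simp [ψ, traceDual_apply, hfw, ht]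
    have hψ : ∀ l : L, ψ (l • u) = 0 := fun l => by
      simp [ψ, traceDual_apply, hf u (Submodule.mem_span_singleton_self u)]
    have hψu : ψ u = 0 := by simpa using hψ 1
    have hχw : (c • χ') w = 0 := by simpa using hline 1
    refine ((inM_transv_of_line hall hψ).comm (inM_transv_of_line hall hline) ?_ ?_ ?_).congr
      fun y => ?_
    · intro y; simp [hψu]
    · intro y; simp only [LinearMap.smulRight_apply, map_smul, hχw, smul_zero, zero_smul]
    · intro y; simp [hχu]
    · simp [hψw]
  obtain ⟨w, hw⟩ : ∃ w, w ∉ Submodule.span L {u} := by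
    by_contra! h
    have h1 := finrank_span_singleton (K := L) hu0
    rw [show Submodule.span L {u} = ⊤ from eq_top_iff.2 fun y _ => h y, finrank_top] at h1
    omega
  obtain ⟨d, hd⟩ : ∃ d : L, d ∉ (algebraMap F L).range := by
    by_contra! h
    have h1 : finrank F L = 1 := by
      refine finrank_eq_one_iff'.2 ⟨1, one_ne_zero, fun y => ?_⟩
      obtain ⟨c, rfl⟩ := h y
      exact ⟨c, by simp [Algebra.algebraMap_eq_smul_one]⟩
    omega
  have hw1 : ∀ l : L, w + l • u ∉ Submodule.span L {u} := fun l h => hw (by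
    simpa using Submodule.sub_mem _ h (Submodule.smul_mem _ l (Submodule.mem_span_singleton_self u)))
  have hint : A w ⊓ (A (w + u) ⊓ A (w + d • u)) ≤ F ∙ u := by
    rintro y ⟨h1, h2, h3⟩
    obtain ⟨p, hp, q, hq, rfl⟩ := Submodule.mem_sup.1 h1
    obtain ⟨p', hp', q', hq', he2⟩ := Submodule.mem_sup.1 h2
    obtain ⟨p'', hp'', q'', hq'', he3⟩ := Submodule.mem_sup.1 h3
    obtain ⟨c, rfl⟩ := Submodule.mem_span_singleton.1 hp
    obtain ⟨c', rfl⟩ := Submodule.mem_span_singleton.1 hp'
    obtain ⟨c'', rfl⟩ := Submodule.mem_span_singleton.1 hp''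
    obtain ⟨l, rfl⟩ := mem_lineF.1 hq
    obtain ⟨l', rfl⟩ := mem_lineF.1 hq'
    obtain ⟨l'', rfl⟩ := mem_lineF.1 hq''
    have hind : ∀ a b : L, a • u + b • w = 0 → a = 0 ∧ b = 0 := by
      intro a b hab
      have hb : b = 0 := by
        by_contra hb
        refine hw (Submodule.mem_span_singleton.2 ⟨-(b⁻¹ * a), ?_⟩)
        have hc := congrArg (fun z => b⁻¹ • z) hab
        simp only [smul_add, smul_zero, inv_smul_smul₀ hb, smul_smul] at hc
        rw [neg_smul, eq_comm, eq_neg_iff_add_eq_zero, add_comm]
        exact hc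
      refine ⟨?_, hb⟩
      rw [hb, zero_smul, add_zero] at hab
      exact (smul_eq_zero.1 hab).resolve_right hu0
    have e2 := hind (algebraMap F L c' + l' - algebraMap F L c) (l' - l) (by
      rw [sub_smul, add_smul, sub_smul, algebraMap_smul, algebraMap_smul, ← sub_eq_zero.2 he2,
        smul_add]
      abel)
    have e3 := hind (algebraMap F L c'' + l'' * d - algebraMap F L c) (l'' - l) (by
      rw [sub_smul, add_smul, sub_smul, algebraMap_smul, algebraMap_smul, mul_smul,
        ← sub_eq_zero.2 he3, smul_add]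
      abel)
    obtain rfl : l' = l := sub_eq_zero.1 e2.2
    obtain rfl : l'' = l' := sub_eq_zero.1 e3.2
    have hl : l'' = algebraMap F L (c - c') := by rw [map_sub]; linear_combination e2.1
    by_cases hcc : c - c' = 0
    · rw [hcc, map_zero] at hl
      rw [hl, zero_smul, add_zero]
      exact Submodule.smul_mem _ c (Submodule.mem_span_singleton_self u)
    · exfalso
      refine hd ⟨(c - c'') * (c - c')⁻¹, ?_⟩
      have h4 : algebraMap F L (c - c') * d = algebraMap F L (c - c'') := by
        rw [← hl, map_sub]; linear_combination e3.1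
      rw [map_mul, map_inv₀, ← h4]
      have hne : algebraMap F L (c - c') ≠ 0 := by
        simpa only [ne_eq, FaithfulSMul.algebraMap_eq_zero_iff] using hcc
      field_simp
  have hmem : χ ∈ (A w ⊓ (A (w + u) ⊓ A (w + d • u))).dualAnnihilator := by
    rw [Submodule.mem_dualAnnihilator]
    intro y hy
    obtain ⟨c, rfl⟩ := Submodule.mem_span_singleton.1 (hint hy)
    simp [hu]
  rw [Subspace.dualAnnihilator_inf_eq, Subspace.dualAnnihilator_inf_eq] at hmem
  have h1 : (A (w + u)).dualAnnihilator ≤ T := hA _ (by simpa using hw1 1)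
  have hT : χ ∈ T := sup_le (hA w hw) (sup_le h1 (hA _ (hw1 d))) hmem
  simpa using hT.2 1

end CfsgLib.FieldExtMax
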